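import Mathlib

set_option autoImplicit false

/-! Definitions for the ladder NILSYM: nilpotent subgroups of largest order in the
symmetric and alternating groups (S2253, S2254, S2255, S2256). -/

namespace Cfsg.Agent.Lib.Helper46.NilSym

/-- the `2`-part of `n!` -/
def W (n : ℕ) : ℕ := 2 ^ padicValNat 2 n.factorial

/-- the largest order of a nilpotent subgroup of `S_n` -/
def F (n : ℕ) : ℕ := if n % 4 = 3 then 3 * W (n - 3) else W n

/-- residue factor: `F (4k+r) = 2^(3k) * W k * fr r` -/
def fr (r : ℕ) : ℕ := if r = 0 then 1 else if r = 1 then 1 else if r = 2 then 2 else 3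

/-- the `p`-part of `(p^a)!` -/
def tpp (p a : ℕ) : ℕ := p ^ padicValNat p (p ^ a).factorial

/-- bound for the order of a transitive nilpotent group of degree `m` -/
def tau (m : ℕ) : ℕ := m.factorization.prod tpp

/-- bound for the order of a nilpotent subgroup of `A_n` -/
def E (n : ℕ) : ℕ :=
  if n = 0 then 1 else if n = 1 then 1 else if n = 3 then 3 else if n = 5 then 5
  else if n = 6 then 9 else if n = 9 then 81 else F n / 2

variable {α : Type}

/-- restriction of a permutation group to an invariant subset -/
def resHom (N : Subgroup (Equiv.Perm α)) (p : α → Prop)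
    (h : ∀ g ∈ N, ∀ x, p (g x) ↔ p x) : N →* Equiv.Perm {x // p x} where
  toFun g := (g : Equiv.Perm α).subtypePerm (h g g.2)
  map_one' := by ext x; rfl
  map_mul' a b := by ext x; rfl

@[simp] theorem resHom_apply (N : Subgroup (Equiv.Perm α)) (p : α → Prop)
    (h : ∀ g ∈ N, ∀ x, p (g x) ↔ p x) (g : N) (x : {x // p x}) :
    ((resHom N p h g x : {x // p x}) : α) = (g : Equiv.Perm α) x := rfl

end Cfsg.Agent.Lib.Helper46.NilSym
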