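import Mathlib
import Cfsg.Agent.Lib.Helper46.NilSym.Defs

set_option autoImplicit false

namespace Cfsg.Agent.Lib.Helper46.NilSym
open Equiv

variable {α : Type}

theorem odd_centralizer_odd_perm [Fintype α] [DecidableEq α] (Q : Subgroup (Perm α))
    (hQ : Odd (Nat.card Q)) (x : Perm α) (hx2 : x ^ 2 = 1) (hx1 : x ≠ 1)
    (hxQ : ∀ y ∈ Q, x * y = y * x) :
    ∃ t : Perm α, t ^ 2 = 1 ∧ (∀ y ∈ Q, t * y = y * t) ∧ Perm.sign t = -1 := by
  classical
  have : Fact (Nat.Prime 2) := ⟨Nat.prime_two⟩
  obtain ⟨a, ha⟩ : ∃ a, x a ≠ a := by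
    by_contra h
    push Not at h
    exact hx1 (Perm.ext h)
  have hxx : ∀ b, x (x b) = b := fun b => by
    have := congrArg (fun f : Perm α => f b) hx2
    simpa [pow_two] using this
  have hcomm : ∀ y ∈ Q, ∀ b, x (y b) = y (x b) := fun y hy b => by
    have := congrArg (fun f : Perm α => f b) (hxQ y hy)
    simpa using this
  let Γ : Set α := MulAction.orbit Q a
  have hΓmem : ∀ b, b ∈ Γ ↔ ∃ y ∈ Q, y a = b := by
    intro b
    constructor
    · rintro ⟨y, rfl⟩
      exact ⟨y, y.2, rfl⟩
    · rintro ⟨y, hy, rfl⟩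
      exact ⟨⟨y, hy⟩, rfl⟩
  have hΓinv1 : ∀ y ∈ Q, ∀ b, b ∈ Γ → y b ∈ Γ := by
    intro y hy b hb
    obtain ⟨z, hz, rfl⟩ := (hΓmem b).1 hb
    exact (hΓmem _).2 ⟨y * z, Q.mul_mem hy hz, rfl⟩
  have hΓinv : ∀ y ∈ Q, ∀ b, y b ∈ Γ ↔ b ∈ Γ := by
    intro y hy b
    refine ⟨fun h => ?_, hΓinv1 y hy b⟩
    have := hΓinv1 y⁻¹ (Q.inv_mem hy) _ h
    simpa using this
  have hodd : Odd (Nat.card Γ) := by
    have h1 : Nat.card Γ ∣ Nat.card Q := by
      have := MulAction.index_stabilizer Q a
      rw [← Nat.card_coe_set_eq] at this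
      rw [show Nat.card Γ = Nat.card (MulAction.orbit Q a) from rfl, ← this]
      exact Subgroup.index_dvd_card _
    exact Odd.of_dvd_nat hQ h1
  have hi : ∀ b ∈ Γ, x b ∉ Γ := by
    intro b hb hxb
    have hmap : ∀ c ∈ Γ, x c ∈ Γ := by
      intro c hc
      obtain ⟨y, hy, rfl⟩ := (hΓmem b).1 hb
      obtain ⟨y', hy', rfl⟩ := (hΓmem c).1 hc
      have h1 : x (y' a) = (y' * y⁻¹) (x (y a)) := by
        rw [← hcomm _ (Q.mul_mem hy' (Q.inv_mem hy))]
        simp
      rw [h1]
      exact hΓinv1 _ (Q.mul_mem hy' (Q.inv_mem hy)) _ hxb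
    let σ : Perm Γ := x.subtypePerm (fun c => ⟨fun h => by
      have := hmap (x c) h
      rwa [hxx] at this, hmap c⟩)
    have hσ : σ ^ 2 ^ 1 = 1 := by
      ext c
      simp [σ, pow_two, hxx]
    have hnd : ¬ 2 ∣ Fintype.card Γ := by
      rw [← Nat.card_eq_fintype_card]
      exact hodd.not_two_dvd_nat
    obtain ⟨c, hc⟩ := Perm.exists_fixed_point_of_prime hnd hσ
    have hc' : x c = c := by
      have := congrArg Subtype.val hc
      simpa [σ] using this
    obtain ⟨y, hy, hya⟩ := (hΓmem c).1 c.2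
    apply ha
    have : x (y a) = y a := by rw [hya]; exact hc'
    rw [hcomm y hy] at this
    exact y.injective this
  let S : α → Prop := fun b => b ∈ Γ ∨ x b ∈ Γ
  have hSx : ∀ b, S (x b) ↔ S b := by
    intro b
    simp only [S, hxx]
    exact or_comm
  have hSy : ∀ y ∈ Q, ∀ b, S (y b) ↔ S b := by
    intro y hy b
    simp only [S, hcomm y hy, hΓinv y hy]
  have hinv : Function.Involutive (fun b => if S b then x b else b) := by
    intro b
    by_cases h : S b
    · simp [h, (hSx b).2 h, hxx]
    · simp [h]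
  let t : Perm α := hinv.toPerm
  have ht : ∀ b, t b = if S b then x b else b := fun b => rfl
  have ht2 : t ^ 2 = 1 := by
    ext b
    rw [pow_two, Perm.mul_apply, Perm.one_apply]
    exact hinv b
  have hne : ∀ b, S b → x b ≠ b := by
    intro b hb h
    rcases hb with hb | hb
    · exact hi b hb (by rw [h]; exact hb)
    · have := hi _ hb
      rw [hxx] at this
      exact this (by rw [h] at hb; exact hb)
  have hsupp : t.support = Finset.univ.filter S := by
    ext b
    simp only [Perm.mem_support, Finset.mem_filter, Finset.mem_univ, true_and, ht]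
    by_cases h : S b
    · simp [h, hne b h]
    · simp [h]
  have hcard : (Finset.univ.filter S).card = 2 * Nat.card Γ := by
    have h1 : Finset.univ.filter S
        = Finset.univ.filter (fun b => b ∈ Γ) ∪ Finset.univ.filter (fun b => x b ∈ Γ) := by
      ext b
      simp [S]
    have h2 : Disjoint (Finset.univ.filter (fun b => b ∈ Γ))
        (Finset.univ.filter (fun b => x b ∈ Γ)) := by
      rw [Finset.disjoint_left]
      intro b hb hb'
      simp only [Finset.mem_filter, Finset.mem_univ, true_and] at hb hb'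
      exact hi b hb hb'
    have h3 : (Finset.univ.filter (fun b => x b ∈ Γ)).card
        = (Finset.univ.filter (fun b => b ∈ Γ)).card := by
      apply Finset.card_nbij' x x
      · intro b hb
        simpa using hb
      · intro b hb
        simpa [hxx] using hb
      · intro b _
        exact hxx b
      · intro b _
        exact hxx b
    have h4 : (Finset.univ.filter (fun b => b ∈ Γ)).card = Nat.card Γ := by
      rw [Nat.card_eq_fintype_card, Fintype.card_subtype]
    rw [h1, Finset.card_union_of_disjoint h2, h3, h4]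
    ring
  have ht1 : t ≠ 1 := by
    intro h
    have : t a = a := by rw [h]; rfl
    rw [ht] at this
    have hSa : S a := Or.inl ((hΓmem a).2 ⟨1, Q.one_mem, rfl⟩)
    simp only [hSa, if_true] at this
    exact ha this
  have hord : orderOf t = 2 := orderOf_eq_prime ht2 ht1
  refine ⟨t, ht2, ?_, ?_⟩
  · intro y hy
    ext b
    simp only [Perm.mul_apply, ht]
    by_cases h : S b
    · simp [h, (hSy y hy b).2 h, hcomm y hy]
    · have : ¬ S (y b) := fun h' => h ((hSy y hy b).1 h')
      simp [h, this]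
  · obtain ⟨n, hn⟩ := Perm.cycleType_prime_order (σ := t) (by rw [hord]; exact Nat.prime_two)
    rw [hord] at hn
    have hsum := Perm.sum_cycleType t
    rw [hn, hsupp, hcard] at hsum
    simp only [Multiset.sum_replicate, smul_eq_mul] at hsum
    have hn1 : n + 1 = Nat.card Γ := by omega
    rw [Perm.sign_of_cycleType, hn]
    simp only [Multiset.sum_replicate, smul_eq_mul, Multiset.card_replicate]
    rw [hn1]
    have : Odd (Nat.card Γ * 2 + Nat.card Γ) := by
      obtain ⟨k, hk⟩ := hodd
      exact ⟨3 * k + 1, by omega⟩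
    exact this.neg_one_pow

end Cfsg.Agent.Lib.Helper46.NilSym
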