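import Mathlib
import Cfsg.Agent.Lib.Helper46.NilSym.Defs

set_option autoImplicit false

/-! Ladder NILSYM, rung GD (helper98). -/

namespace Cfsg.Agent.Lib.Helper46.NilSym
open Equiv

theorem gd_aux {M : Type} [Group M] [Finite M] [Group.IsNilpotent M] (p : ℕ) [Fact p.Prime] :
    ∃ P Q : Subgroup M, IsPGroup p P ∧ (Nat.card Q).Coprime p ∧
      (∀ x ∈ P, ∀ y ∈ Q, x * y = y * x) ∧ P ⊔ Q = ⊤ ∧ Nat.card M = Nat.card P * Nat.card Q ∧
      P.Normal := by
  obtain ⟨P₀⟩ : Nonempty (Sylow p M) := inferInstance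
  have hPn : (P₀ : Subgroup M).Normal := inferInstance
  obtain ⟨Q, hQ⟩ := Subgroup.exists_right_complement'_of_coprime P₀.card_coprime_index
  have hcard : Nat.card (P₀ : Subgroup M) * Nat.card Q = Nat.card M := hQ.card_mul_card
  have hidx : Nat.card Q = (P₀ : Subgroup M).index := by
    have h1 := (P₀ : Subgroup M).card_mul_index
    rw [← hcard] at h1
    exact (Nat.eq_of_mul_eq_mul_left Nat.card_pos h1).symm
  have hQp : (Nat.card Q).Coprime p := by
    apply Nat.Coprime.symm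
    rw [Nat.Prime.coprime_iff_not_dvd Fact.out, hidx]
    exact P₀.not_dvd_index
  have htop : (P₀ : Subgroup M) ⊔ Subgroup.centralizer ((P₀ : Subgroup M) : Set M) = ⊤ := by
    rw [← Subgroup.index_eq_one]
    by_contra hne
    obtain ⟨q, hq, hqd⟩ := Nat.exists_prime_and_dvd hne
    have hqf : Fact q.Prime := ⟨hq⟩
    by_cases hqp : q = p
    · subst hqp
      exact P₀.not_dvd_index (hqd.trans (Subgroup.index_dvd_of_le le_sup_left))
    · obtain ⟨S⟩ : Nonempty (Sylow q M) := inferInstance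
      have hSn : (S : Subgroup M).Normal := inferInstance
      have hdis : Disjoint (S : Subgroup M) (P₀ : Subgroup M) :=
        IsPGroup.disjoint_of_ne q p hqp _ _ S.2 P₀.2
      have hSC : (S : Subgroup M) ≤ Subgroup.centralizer ((P₀ : Subgroup M) : Set M) := by
        intro s hs
        rw [Subgroup.mem_centralizer_iff]
        intro x hx
        exact (Subgroup.commute_of_normal_of_disjoint _ _ hSn hPn hdis s x hs hx).symm.eq
      exact S.not_dvd_index (hqd.trans (Subgroup.index_dvd_of_le (hSC.trans le_sup_right)))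
  refine ⟨P₀, Q, P₀.2, hQp, ?_, hQ.sup_eq_top, hcard.symm, hPn⟩
  have hQC : Q ≤ Subgroup.centralizer ((P₀ : Subgroup M) : Set M) := by
    intro y hy
    obtain ⟨a, ha, c, hc, rfl⟩ := Subgroup.mem_sup_of_normal_left.mp
      (htop ▸ Subgroup.mem_top y :
        y ∈ (P₀ : Subgroup M) ⊔ Subgroup.centralizer ((P₀ : Subgroup M) : Set M))
    have hac : Commute a c := (Subgroup.mem_centralizer_iff.mp hc) a ha
    have han : a ^ Nat.card (P₀ : Subgroup M) = 1 := by
      have := pow_card_eq_one' (x := (⟨a, ha⟩ : (P₀ : Subgroup M)))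
      exact congrArg Subtype.val this
    have hpow : (a * c) ^ Nat.card (P₀ : Subgroup M) = c ^ Nat.card (P₀ : Subgroup M) := by
      rw [hac.mul_pow, han, one_mul]
    have hord : orderOf (a * c) ∣ Nat.card Q := by
      have := orderOf_dvd_natCard (⟨a * c, hy⟩ : Q)
      rwa [Subgroup.orderOf_mk] at this
    have hcop : Nat.Coprime (Nat.card (P₀ : Subgroup M)) (orderOf (a * c)) := by
      obtain ⟨k, hk⟩ := P₀.2.exists_card_eq
      rw [hk]
      exact Nat.Coprime.pow_left k (Nat.Coprime.coprime_dvd_right hord hQp.symm)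
    obtain ⟨m, hm⟩ := exists_pow_eq_self_of_coprime hcop
    rw [← hm, hpow]
    exact Subgroup.pow_mem _ (Subgroup.pow_mem _ hc _) _
  intro x hx y hy
  exact (Subgroup.mem_centralizer_iff.mp (hQC hy)) x hx

theorem nil_dec {G : Type} [Group G] [Finite G] (N : Subgroup G) (hN : Group.IsNilpotent N)
    (p : ℕ) [Fact p.Prime] :
    ∃ P Q : Subgroup G, IsPGroup p P ∧ (Nat.card Q).Coprime p ∧
      (∀ x ∈ P, ∀ y ∈ Q, x * y = y * x) ∧ P ⊔ Q = N ∧ Nat.card N = Nat.card P * Nat.card Q ∧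
      (∀ g ∈ N, ∀ x ∈ P, g * x * g⁻¹ ∈ P) := by
  obtain ⟨P, Q, hP, hQ, hc, hsup, hcard, hn⟩ := gd_aux (M := N) p
  refine ⟨P.map N.subtype, Q.map N.subtype, hP.map _, ?_, ?_, ?_, ?_, ?_⟩
  · rw [Subgroup.card_map_of_injective N.subtype_injective]
    exact hQ
  · rintro _ ⟨x, hx, rfl⟩ _ ⟨y, hy, rfl⟩
    exact congrArg Subtype.val (hc x hx y hy)
  · rw [← Subgroup.map_sup, hsup, ← MonoidHom.range_eq_map, Subgroup.range_subtype]
  · rw [Subgroup.card_map_of_injective N.subtype_injective,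
      Subgroup.card_map_of_injective N.subtype_injective]
    exact hcard
  · rintro g hg _ ⟨x, hx, rfl⟩
    exact ⟨⟨g, hg⟩ * x * ⟨g, hg⟩⁻¹, hn.conj_mem x hx ⟨g, hg⟩, rfl⟩

end Cfsg.Agent.Lib.Helper46.NilSym
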