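import Mathlib
import Cfsg.Agent.Lib.Helper46.NilSym.Defs

set_option autoImplicit false

/-! Ladder NILSYM, rung GN (helper98). -/

namespace Cfsg.Agent.Lib.Helper46.NilSym
open Equiv

theorem gn_comm {G : Type} [Group G] (A B : Subgroup G) (h : ∀ x ∈ A, ∀ y ∈ B, x * y = y * x) :
    ∀ (a : A) (b : B), Commute (A.subtype a) (B.subtype b) := fun a b => h a a.2 b b.2

theorem gn_range {G : Type} [Group G] (A B : Subgroup G) (h : ∀ x ∈ A, ∀ y ∈ B, x * y = y * x) :
    (MonoidHom.noncommCoprod A.subtype B.subtype (gn_comm A B h)).range = A ⊔ B := by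
  rw [MonoidHom.noncommCoprod_range, Subgroup.range_subtype, Subgroup.range_subtype]

theorem gn_mem_sup {G : Type} [Group G] {A B : Subgroup G} (h : ∀ x ∈ A, ∀ y ∈ B, x * y = y * x)
    {g : G} (hg : g ∈ A ⊔ B) : ∃ a ∈ A, ∃ b ∈ B, a * b = g := by
  rw [← gn_range A B h] at hg
  obtain ⟨⟨a, b⟩, rfl⟩ := hg
  exact ⟨a, a.2, b, b.2, rfl⟩

theorem sup_nilpotent_of_commute {G : Type} [Group G] (A B : Subgroup G) (hA : Group.IsNilpotent A)
    (hB : Group.IsNilpotent B) (h : ∀ x ∈ A, ∀ y ∈ B, x * y = y * x) :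
    Group.IsNilpotent (A ⊔ B : Subgroup G) := by
  rw [← gn_range A B h]
  exact Group.nilpotent_of_surjective
    (MonoidHom.noncommCoprod A.subtype B.subtype (gn_comm A B h)).rangeRestrict
    (MonoidHom.rangeRestrict_surjective _)

theorem le_nilpotent {G : Type} [Group G] (A B : Subgroup G) (hAB : A ≤ B) (hB : Group.IsNilpotent B) :
    Group.IsNilpotent A :=
  Group.nilpotent_of_mulEquiv (Subgroup.subgroupOfEquivOfLe hAB)

end Cfsg.Agent.Lib.Helper46.NilSym
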