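import Mathlib
import Cfsg.Agent.Lib.Helper46.NilSym.Defs
import Cfsg.Agent.Lib.Helper46.NilSym.GD
import Cfsg.Agent.Lib.Helper46.NilSym.GN
import Cfsg.Agent.Lib.Helper46.NilSym.GA1

set_option autoImplicit false

namespace Cfsg.Agent.Lib.Helper46.NilSym
open Equiv
open scoped Pointwise

variable {α : Type}

theorem alt_even_extend [Fintype α] [DecidableEq α] (N : Subgroup (Perm α))
    (hN : Group.IsNilpotent N) (h2 : 2 ∣ Nat.card N) :
    ∃ M : Subgroup (Perm α), Group.IsNilpotent M ∧ N ≤ M ∧ ¬ M ≤ alternatingGroup α := by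
  classical
  have : Fact (Nat.Prime 2) := ⟨Nat.prime_two⟩
  obtain ⟨P, Q, hP, hQ, hcomm, hsup, hcard, -⟩ := nil_dec N hN 2
  have hP2 : 2 ∣ Nat.card P := by
    rw [hcard] at h2
    exact (Nat.Coprime.dvd_of_dvd_mul_right (Nat.Coprime.symm hQ) h2)
  obtain ⟨x, hx⟩ := exists_prime_orderOf_dvd_card' 2 hP2
  have hx2 : (x : Perm α) ^ 2 = 1 := by
    have := pow_orderOf_eq_one x
    rw [hx] at this
    exact_mod_cast congrArg Subtype.val this
  have hx1 : (x : Perm α) ≠ 1 := by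
    intro h
    have : x = 1 := Subtype.ext h
    rw [this, orderOf_one] at hx
    omega
  have hQodd : Odd (Nat.card Q) := by
    rw [← Nat.not_even_iff_odd, even_iff_two_dvd]
    intro h
    have := Nat.dvd_gcd h (dvd_refl 2)
    rw [hQ] at this
    omega
  obtain ⟨t, ht2, htQ, hts⟩ := odd_centralizer_odd_perm Q hQodd x hx2 hx1
    (fun y hy => hcomm x x.2 y hy)
  set C : Subgroup (Perm α) := Subgroup.centralizer (Q : Set (Perm α)) with hC
  have hPC : P ≤ C := by
    intro u hu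
    rw [hC, Subgroup.mem_centralizer_iff]
    intro y hy
    exact (hcomm u hu y hy).symm
  have htC : t ∈ C := by
    rw [hC, Subgroup.mem_centralizer_iff]
    intro y hy
    exact (htQ y hy).symm
  have hP' : IsPGroup 2 (P.subgroupOf C) :=
    hP.comap_of_injective C.subtype C.subtype_injective
  obtain ⟨S, hS⟩ := hP'.exists_le_sylow
  have hZ : IsPGroup 2 (Subgroup.zpowers (⟨t, htC⟩ : C)) := by
    apply IsPGroup.of_card_dvd_pow (n := 1)
    rw [Nat.card_zpowers, pow_one]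
    apply orderOf_dvd_of_pow_eq_one
    exact Subtype.ext ht2
  obtain ⟨S', hS'⟩ := hZ.exists_le_sylow
  obtain ⟨c, hc⟩ := MulAction.exists_smul_eq C S' S
  have ht' : c * ⟨t, htC⟩ * c⁻¹ ∈ S := by
    rw [← hc]
    have h1 : (⟨t, htC⟩ : C) ∈ S' := hS' (Subgroup.mem_zpowers _)
    have h2 : MulAut.conj c • (⟨t, htC⟩ : C) ∈ MulAut.conj c • S'.toSubgroup :=
      Subgroup.smul_mem_pointwise_smul _ _ _ h1
    rw [← Sylow.coe_subgroup_smul] at h2
    have h3 : MulAut.conj c • (⟨t, htC⟩ : C) = c * ⟨t, htC⟩ * c⁻¹ := by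
      simp [MulAut.smul_def]
    rw [h3] at h2
    exact h2
  refine ⟨S.toSubgroup.map C.subtype ⊔ Q, ?_, ?_, ?_⟩
  · apply sup_nilpotent_of_commute
    · have : IsPGroup 2 (S.toSubgroup.map C.subtype) := S.2.map _
      exact this.isNilpotent
    · exact le_nilpotent Q N (hsup ▸ le_sup_right) hN
    · intro u hu y hy
      obtain ⟨v, -, rfl⟩ := Subgroup.mem_map.1 hu
      exact (Subgroup.mem_centralizer_iff.1 v.2 y hy).symm
  · rw [← hsup]
    apply sup_le_sup_right
    intro u hu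
    exact Subgroup.mem_map.2 ⟨⟨u, hPC hu⟩, hS (by rw [Subgroup.mem_subgroupOf]; exact hu), rfl⟩
  · intro hle
    have h1 : ((c * ⟨t, htC⟩ * c⁻¹ : C) : Perm α) ∈ S.toSubgroup.map C.subtype ⊔ Q :=
      Subgroup.mem_sup_left (Subgroup.mem_map.2 ⟨_, ht', rfl⟩)
    have h2 := Perm.mem_alternatingGroup.1 (hle h1)
    simp [hts] at h2

end Cfsg.Agent.Lib.Helper46.NilSym
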