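import Mathlib
import Cfsg.Agent.Lib.Helper46.NilSym.Defs

set_option autoImplicit false

namespace Cfsg.Agent.Lib.Helper46.NilSym
open Equiv

variable {α : Type}

theorem two_mul_card_inf_alt [Fintype α] [DecidableEq α] (M : Subgroup (Perm α))
    (hM : ¬ M ≤ alternatingGroup α) :
    2 * Nat.card (M ⊓ alternatingGroup α : Subgroup (Perm α)) = Nat.card M := by
  classical
  obtain ⟨t, htM, htA⟩ := SetLike.not_le_iff_exists.1 hM
  have hts : Perm.sign t = -1 := by
    rcases Int.units_eq_one_or (Perm.sign t) with h | h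
    · exact absurd (Perm.mem_alternatingGroup.2 h) htA
    · exact h
  let f : M →* ℤˣ := Perm.sign.comp M.subtype
  have hsurj : Function.Surjective f := by
    intro u
    rcases Int.units_eq_one_or u with h | h
    · exact ⟨1, by simp [h]⟩
    · exact ⟨⟨t, htM⟩, by simp [f, h, hts]⟩
  have hker : Nat.card f.ker = Nat.card (M ⊓ alternatingGroup α : Subgroup (Perm α)) := by
    have : f.ker = (alternatingGroup α).subgroupOf M := by
      ext x
      simp [f, MonoidHom.mem_ker, Subgroup.mem_subgroupOf, Perm.mem_alternatingGroup]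
    rw [this]
    have h2 := Subgroup.subgroupOfEquivOfLe (inf_le_left : M ⊓ alternatingGroup α ≤ M)
    rw [← Nat.card_congr h2.toEquiv]
    rw [Subgroup.inf_subgroupOf_left]
  have h1 := Subgroup.card_eq_card_quotient_mul_card_subgroup f.ker
  have h2 : Nat.card (M ⧸ f.ker) = 2 := by
    rw [Nat.card_congr (QuotientGroup.quotientKerEquivOfSurjective f hsurj).toEquiv]
    simp
  rw [h1, h2, hker]

end Cfsg.Agent.Lib.Helper46.NilSym
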