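import Mathlib
import Cfsg.Agent.Lib.Helper46.NilSym.Defs

set_option autoImplicit false

/-! Ladder NILSYM, rung GR1 (helper98). -/

namespace Cfsg.Agent.Lib.Helper46.NilSym
open Equiv

variable {α : Type}

theorem orbit_inv (N : Subgroup (Perm α)) (a : α) :
    ∀ g ∈ N, ∀ x, g x ∈ MulAction.orbit N a ↔ x ∈ MulAction.orbit N a := by
  intro g hg x
  constructor
  · intro hx
    have := MulAction.mem_orbit_of_mem_orbit (⟨g, hg⟩⁻¹ : N) hx
    have h2 : (⟨g, hg⟩⁻¹ : N) • (g x) = x := by
      change g⁻¹ (g x) = x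
      simp
    rwa [h2] at this
  · intro hx
    exact MulAction.mem_orbit_of_mem_orbit (⟨g, hg⟩ : N) hx

theorem not_inv (N : Subgroup (Perm α)) (p : α → Prop) (h : ∀ g ∈ N, ∀ x, p (g x) ↔ p x) :
    ∀ g ∈ N, ∀ x, ¬ p (g x) ↔ ¬ p x := fun g hg x => not_congr (h g hg x)

theorem res_range_nilpotent (N : Subgroup (Perm α)) (hN : Group.IsNilpotent N) (p : α → Prop)
    (h : ∀ g ∈ N, ∀ x, p (g x) ↔ p x) : Group.IsNilpotent (resHom N p h).range :=
  Group.nilpotent_of_surjective (resHom N p h).rangeRestrict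
    (MonoidHom.rangeRestrict_surjective _)

theorem card_le_res_mul_res [Finite α] (N : Subgroup (Perm α)) (p : α → Prop)
    (h : ∀ g ∈ N, ∀ x, p (g x) ↔ p x) :
    Nat.card N ≤ Nat.card (resHom N p h).range *
      Nat.card (resHom N (fun x => ¬ p x) (not_inv N p h)).range := by
  rw [← Nat.card_prod]
  apply Nat.card_le_card_of_injective
    (fun g : N => ((resHom N p h).rangeRestrict g,
      (resHom N (fun x => ¬ p x) (not_inv N p h)).rangeRestrict g))
  intro g₁ g₂ h12
  have h1 : resHom N p h g₁ = resHom N p h g₂ := congrArg (fun z => (z.1 : Perm {x // p x})) h12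
  have h2 : resHom N (fun x => ¬ p x) (not_inv N p h) g₁
      = resHom N (fun x => ¬ p x) (not_inv N p h) g₂ :=
    congrArg (fun z => (z.2 : Perm {x // ¬ p x})) h12
  apply Subtype.ext
  ext x
  by_cases hx : p x
  · have := congrArg (fun f : Perm {x // p x} => ((f ⟨x, hx⟩ : {x // p x}) : α)) h1
    simpa using this
  · have := congrArg (fun f : Perm {x // ¬ p x} => ((f ⟨x, hx⟩ : {x // ¬ p x}) : α)) h2
    simpa using this

end Cfsg.Agent.Lib.Helper46.NilSym
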