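import Mathlib
import Cfsg.Agent.Lib.Helper46.NilSym.Defs
import Cfsg.Agent.Lib.Helper46.NilSym.GR1

set_option autoImplicit false

/-! Ladder NILSYM, rung GR2 (helper98). -/

namespace Cfsg.Agent.Lib.Helper46.NilSym
open Equiv

variable {α : Type}

theorem res_orbit_card (N : Subgroup (Perm α)) (p : α → Prop)
    (h : ∀ g ∈ N, ∀ x, p (g x) ↔ p x) (x : {x // p x}) :
    Nat.card (MulAction.orbit (resHom N p h).range x) = Nat.card (MulAction.orbit N (x : α)) := by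
  apply Nat.card_congr
  refine Equiv.ofBijective
    (fun y => ⟨y.1.1, ?_⟩) ⟨?_, ?_⟩
  · obtain ⟨⟨_, ⟨g, rfl⟩⟩, hg⟩ := y.2
    refine ⟨g, ?_⟩
    rw [← hg]
    rfl
  · intro y₁ y₂ h12
    apply Subtype.ext
    apply Subtype.ext
    exact congrArg (fun z : MulAction.orbit N (x : α) => (z : α)) h12
  · rintro ⟨_, ⟨g, rfl⟩⟩
    refine ⟨⟨resHom N p h g x, ⟨⟨resHom N p h g, ⟨g, rfl⟩⟩, rfl⟩⟩, ?_⟩
    apply Subtype.ext
    rfl

theorem res_pretransitive (N : Subgroup (Perm α)) (a : α) :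
    MulAction.IsPretransitive (resHom N (fun x => x ∈ MulAction.orbit N a) (orbit_inv N a)).range
      {x // x ∈ MulAction.orbit N a} := by
  constructor
  rintro ⟨_, ⟨g₁, rfl⟩⟩ ⟨_, ⟨g₂, rfl⟩⟩
  refine ⟨⟨resHom N _ (orbit_inv N a) (g₂ * g₁⁻¹), ⟨_, rfl⟩⟩, ?_⟩
  apply Subtype.ext
  change ((g₂ * g₁⁻¹ : N) : Perm α) ((g₁ : Perm α) a) = (g₂ : Perm α) a
  simp

end Cfsg.Agent.Lib.Helper46.NilSym
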