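import Mathlib
import Cfsg.Agent.Lib.Helper46.NilSym.Defs
import Cfsg.Agent.Lib.Helper46.NilSym.GN

set_option autoImplicit false

/-! Ladder NILSYM, rung GT1 (helper98). -/

namespace Cfsg.Agent.Lib.Helper46.NilSym
open Equiv

variable {α : Type}

theorem faithful_on_orbit (P Q : Subgroup (Perm α)) (hc : ∀ x ∈ P, ∀ y ∈ Q, x * y = y * x)
    (ht : MulAction.IsPretransitive (P ⊔ Q : Subgroup (Perm α)) α) (a : α) (u : Perm α) (hu : u ∈ P)
    (hfix : ∀ b ∈ MulAction.orbit P a, u b = b) : u = 1 := by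
  ext b
  obtain ⟨g, hg⟩ := ht.exists_smul_eq a b
  obtain ⟨x, hx, y, hy, hxy⟩ := gn_mem_sup hc g.2
  have hb : b = y (x a) := by
    rw [← hg]
    change (g : Perm α) a = y (x a)
    rw [← hxy, hc x hx y hy]
    rfl
  have h1 : u (x a) = x a := hfix _ ⟨⟨x, hx⟩, rfl⟩
  have h2 : u (y (x a)) = y (u (x a)) := by
    have := congrArg (fun f : Perm α => f (x a)) (hc u hu y hy)
    exact this
  rw [hb, h2, h1]
  rfl

end Cfsg.Agent.Lib.Helper46.NilSym
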