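import Mathlib
import Cfsg.Agent.Lib.Helper46.NilSym.Defs

set_option autoImplicit false

/-! Ladder NILSYM, rung GT2 (helper98). -/

namespace Cfsg.Agent.Lib.Helper46.NilSym
open Equiv

variable {α : Type}

theorem card_dvd_factorial_orbit [Finite α] (P : Subgroup (Perm α)) (a : α)
    (hf : ∀ u ∈ P, (∀ b ∈ MulAction.orbit P a, u b = b) → u = 1) :
    Nat.card P ∣ (Nat.card (MulAction.orbit P a)).factorial := by
  classical
  rw [← Nat.card_perm]
  apply Subgroup.card_dvd_of_injective (MulAction.toPermHom P (MulAction.orbit P a))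
  rw [injective_iff_map_eq_one]
  intro u hu
  apply Subtype.ext
  apply hf u.1 u.2
  intro b hb
  have := congrArg (fun f : Perm (MulAction.orbit P a) => ((f ⟨b, hb⟩ : MulAction.orbit P a) : α)) hu
  simp only [MulAction.toPermHom_apply, MulAction.toPerm_apply, Perm.coe_one, id_eq] at this
  exact this

end Cfsg.Agent.Lib.Helper46.NilSym
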