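import Mathlib
import Cfsg.Agent.Lib.Helper46.NilSym.Defs

set_option autoImplicit false

/-! Ladder NILSYM, rung GT3 (helper98). -/

namespace Cfsg.Agent.Lib.Helper46.NilSym
open Equiv

variable {α : Type}

theorem card_orbit_dvd_of_normal [Finite α] (N P : Subgroup (Perm α)) (hPN : P ≤ N)
    (hn : ∀ g ∈ N, ∀ x ∈ P, g * x * g⁻¹ ∈ P) (ht : MulAction.IsPretransitive N α) (a : α) :
    Nat.card (MulAction.orbit P a) ∣ Nat.card α := by
  have hnorm : (P.subgroupOf N).Normal := by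
    constructor
    intro x hx g
    rw [Subgroup.mem_subgroupOf] at hx ⊢
    exact hn g g.2 x hx
  have hblock : MulAction.IsBlock N (MulAction.orbit (P.subgroupOf N) a) :=
    MulAction.IsBlock.orbit_of_normal a
  have hne : (MulAction.orbit (P.subgroupOf N) a).Nonempty := ⟨a, MulAction.mem_orbit_self a⟩
  have hd := hblock.ncard_dvd_card hne
  have heq : MulAction.orbit (P.subgroupOf N) a = MulAction.orbit P a := by
    ext b
    constructor
    · rintro ⟨u, rfl⟩
      exact ⟨⟨u.1.1, Subgroup.mem_subgroupOf.mp u.2⟩, rfl⟩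
    · rintro ⟨u, rfl⟩
      exact ⟨⟨⟨u.1, hPN u.2⟩, Subgroup.mem_subgroupOf.mpr u.2⟩, rfl⟩
  rw [heq] at hd
  rwa [Nat.card_coe_set_eq]

end Cfsg.Agent.Lib.Helper46.NilSym
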