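import Mathlib
import Cfsg.Agent.Lib.Helper46.NilSym.Defs
import Cfsg.Agent.Lib.Helper46.NilSym.GD
import Cfsg.Agent.Lib.Helper46.NilSym.GT1
import Cfsg.Agent.Lib.Helper46.NilSym.GT2
import Cfsg.Agent.Lib.Helper46.NilSym.GT3

set_option autoImplicit false

/-! Ladder NILSYM, rung GT4 (helper98). -/

namespace Cfsg.Agent.Lib.Helper46.NilSym
open Equiv

variable {α : Type}

theorem gt4_padic_le_of_dvd (p : ℕ) [Fact p.Prime] {a b : ℕ} (hb : b ≠ 0) (h : a ∣ b) :
    padicValNat p a ≤ padicValNat p b := by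
  rw [← padicValNat_dvd_iff_le hb]
  exact pow_padicValNat_dvd.trans h

theorem trans_padic [Finite α] (N : Subgroup (Perm α)) (hN : Group.IsNilpotent N)
    (ht : MulAction.IsPretransitive N α) (p : ℕ) (hp : p.Prime) :
    padicValNat p (Nat.card N) ≤ padicValNat p (p ^ ((Nat.card α).factorization p)).factorial := by
  have : Fact p.Prime := ⟨hp⟩
  rcases isEmpty_or_nonempty α with he | ⟨⟨a⟩⟩
  · have h1 : Nat.card N = 1 := Nat.card_unique
    rw [h1]
    simp
  · have hne : Nonempty α := ⟨a⟩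
    obtain ⟨P, Q, hP, hQ, hc, hsup, hcard, hn⟩ := nil_dec N hN p
    have ht' : MulAction.IsPretransitive (P ⊔ Q : Subgroup (Perm α)) α := by
      rw [hsup]; exact ht
    have hPN : P ≤ N := hsup ▸ le_sup_left
    have hd1 : Nat.card P ∣ (Nat.card (MulAction.orbit P a)).factorial :=
      card_dvd_factorial_orbit P a (fun u hu hfix => faithful_on_orbit P Q hc ht' a u hu hfix)
    have hd2 : Nat.card (MulAction.orbit P a) ∣ Nat.card α :=
      card_orbit_dvd_of_normal N P hPN hn ht a
    obtain ⟨b, hb⟩ := hP.card_orbit a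
    rw [hb] at hd1 hd2
    have hle : b ≤ (Nat.card α).factorization p :=
      (Nat.Prime.pow_dvd_iff_le_factorization hp (Nat.card_pos.ne')).mp hd2
    have hd3 : (p ^ b).factorial ∣ (p ^ ((Nat.card α).factorization p)).factorial :=
      Nat.factorial_dvd_factorial (Nat.pow_le_pow_right hp.pos hle)
    have hQ0 : padicValNat p (Nat.card Q) = 0 :=
      padicValNat.eq_zero_of_not_dvd (fun hd => by
        have := Nat.Coprime.eq_one_of_dvd hQ.symm hd
        exact hp.one_lt.ne' this)
    rw [hcard, padicValNat.mul Nat.card_pos.ne' Nat.card_pos.ne', hQ0, add_zero]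
    exact gt4_padic_le_of_dvd p (Nat.factorial_ne_zero _) (hd1.trans hd3)

end Cfsg.Agent.Lib.Helper46.NilSym
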