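import Mathlib
import Cfsg.Agent.Lib.Helper46.NilSym.Defs

set_option autoImplicit false

namespace Cfsg.Agent.Lib.Helper46.NilSym
open Equiv

theorem nd_tpp_ne_zero (p a : ℕ) (hp : p.Prime) : tpp p a ≠ 0 := by
  unfold tpp
  exact pow_ne_zero _ hp.ne_zero

theorem nd_tau_eq (m : ℕ) : tau m = ∏ p ∈ m.primeFactors, tpp p (m.factorization p) := by
  unfold tau
  rw [Finsupp.prod, Nat.support_factorization]

theorem nd_tau_ne_zero (m : ℕ) : tau m ≠ 0 := by
  rw [nd_tau_eq]
  exact Finset.prod_ne_zero_iff.mpr fun p hp => nd_tpp_ne_zero p _ (Nat.prime_of_mem_primeFactors hp)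

theorem nd_factorization_tau (m p : ℕ) (hp : p.Prime) (hpm : p ∈ m.primeFactors) :
    (tau m).factorization p = padicValNat p (p ^ (m.factorization p)).factorial := by
  rw [nd_tau_eq, Nat.factorization_prod
    (fun q hq => nd_tpp_ne_zero q _ (Nat.prime_of_mem_primeFactors hq)), Finsupp.finset_sum_apply,
    Finset.sum_eq_single p]
  · unfold tpp
    rw [hp.factorization_pow, Finsupp.single_eq_same]
  · intro q hq hqp
    unfold tpp
    rw [(Nat.prime_of_mem_primeFactors hq).factorization_pow, Finsupp.single_eq_of_ne hqp.symm]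
  · intro h
    exact absurd hpm h

theorem le_tau_of_padic (X m : ℕ) (hX : X ≠ 0) (hm : m ≠ 0)
    (h : ∀ p, p.Prime → padicValNat p X ≤ padicValNat p (p ^ (m.factorization p)).factorial) :
    X ≤ tau m := by
  apply Nat.le_of_dvd (Nat.pos_of_ne_zero (nd_tau_ne_zero m))
  rw [← Nat.factorization_prime_le_iff_dvd hX (nd_tau_ne_zero m)]
  intro p hp
  rw [Nat.factorization_def _ hp]
  by_cases hpm : p ∈ m.primeFactors
  · rw [nd_factorization_tau m p hp hpm]
    exact h p hp
  · have h0 : m.factorization p = 0 := by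
      rw [← Finsupp.notMem_support_iff, Nat.support_factorization]
      exact hpm
    have := h p hp
    rw [h0, pow_zero, Nat.factorial_one, padicValNat.one] at this
    omega

end Cfsg.Agent.Lib.Helper46.NilSym
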