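import Mathlib
import Cfsg.Agent.Lib.Helper46.NilSym.Defs
import Cfsg.Agent.Lib.Helper46.NilSym.GT4
import Cfsg.Agent.Lib.Helper46.NilSym.ND

set_option autoImplicit false

/-! Ladder NILSYM, rung GT5 (helper98). -/

namespace Cfsg.Agent.Lib.Helper46.NilSym
open Equiv

variable {α : Type}

theorem trans_card_le_tau [Finite α] [Nonempty α] (N : Subgroup (Perm α)) (hN : Group.IsNilpotent N)
    (ht : MulAction.IsPretransitive N α) : Nat.card N ≤ tau (Nat.card α) :=
  le_tau_of_padic (Nat.card N) (Nat.card α) Nat.card_pos.ne' Nat.card_pos.ne'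
    (fun p hp => trans_padic N hN ht p hp)

end Cfsg.Agent.Lib.Helper46.NilSym
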