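import Mathlib
import Cfsg.Agent.Lib.Helper46.NilSym.Defs
import Cfsg.Agent.Lib.Helper46.NilSym.GT5
import Cfsg.Agent.Lib.Helper46.NilSym.GR1
import Cfsg.Agent.Lib.Helper46.NilSym.GR2

set_option autoImplicit false

namespace Cfsg.Agent.Lib.Helper46.NilSym
open Equiv

theorem orb_bound (S : Set ℕ) (B : ℕ → ℕ) (hB0 : 1 ≤ B 0)
    (hB : ∀ m ∈ S, 1 ≤ m → ∀ k, tau m * B k ≤ B (m + k)) :
    ∀ (α : Type) [Finite α] (N : Subgroup (Perm α)), Group.IsNilpotent N →
      (∀ a : α, Nat.card (MulAction.orbit N a) ∈ S) → Nat.card N ≤ B (Nat.card α) := by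
  suffices H : ∀ (n : ℕ) (α : Type) [Finite α] (N : Subgroup (Perm α)), Nat.card α = n →
      Group.IsNilpotent N → (∀ a : α, Nat.card (MulAction.orbit N a) ∈ S) →
      Nat.card N ≤ B (Nat.card α) from fun α _ N hN hS => H _ α N rfl hN hS
  classical
  intro n
  induction n using Nat.strong_induction_on with
  | _ n ih =>
    intro α _ N hn hN hS
    rcases isEmpty_or_nonempty α with hα | ⟨⟨a⟩⟩
    · have h1 : Nat.card N = 1 := Nat.card_unique
      rw [h1, Nat.card_of_isEmpty]
      exact hB0
    · have hle := card_le_res_mul_res N (fun x => x ∈ MulAction.orbit N a) (orbit_inv N a)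
      have : Nonempty {x // x ∈ MulAction.orbit N a} := ⟨⟨a, MulAction.mem_orbit_self a⟩⟩
      have h1 := trans_card_le_tau _
        (res_range_nilpotent N hN (fun x => x ∈ MulAction.orbit N a) (orbit_inv N a))
        (res_pretransitive N a)
      have hsum : Nat.card {x // x ∈ MulAction.orbit N a} +
          Nat.card {x // ¬ x ∈ MulAction.orbit N a} = Nat.card α := by
        rw [← Nat.card_sum]
        exact Nat.card_congr (Equiv.sumCompl (fun x => x ∈ MulAction.orbit N a))
      have hm1 : 1 ≤ Nat.card {x // x ∈ MulAction.orbit N a} := Nat.card_pos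
      have hmS : Nat.card {x // x ∈ MulAction.orbit N a} ∈ S := hS a
      have h2 := ih (Nat.card {x // ¬ x ∈ MulAction.orbit N a}) (by omega)
        {x // ¬ x ∈ MulAction.orbit N a}
        (resHom N (fun x => ¬ x ∈ MulAction.orbit N a)
          (not_inv N (fun x => x ∈ MulAction.orbit N a) (orbit_inv N a))).range rfl
        (res_range_nilpotent N hN _ _)
        (fun x => by rw [res_orbit_card]; exact hS x.1)
      calc Nat.card N ≤ _ := hle
        _ ≤ tau (Nat.card {x // x ∈ MulAction.orbit N a}) *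
            B (Nat.card {x // ¬ x ∈ MulAction.orbit N a}) := Nat.mul_le_mul h1 h2
        _ ≤ B (Nat.card {x // x ∈ MulAction.orbit N a} +
            Nat.card {x // ¬ x ∈ MulAction.orbit N a}) := hB _ hmS hm1 _
        _ = B (Nat.card α) := by rw [hsum]

end Cfsg.Agent.Lib.Helper46.NilSym
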