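import Cfsg.Agent.Lib.Helper46.NilSym.Defs

set_option autoImplicit false

/-! Ladder NILSYM, rung NW2 (helper41). -/

namespace Cfsg.Agent.Lib.Helper46.NilSym

theorem W_two_mul (k : ℕ) : W (2 * k) = 2 ^ k * W k := by
  have : Fact (Nat.Prime 2) := ⟨Nat.prime_two⟩
  unfold W
  rw [padicValNat_factorial_mul, pow_add, mul_comm]

theorem W_two_mul_add_one (k : ℕ) : W (2 * k + 1) = 2 ^ k * W k := by
  have : Fact (Nat.Prime 2) := ⟨Nat.prime_two⟩
  rw [← W_two_mul]
  unfold W
  rw [padicValNat_factorial_mul_add k (by norm_num : 1 < 2)]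

theorem W_four (k r : ℕ) (hr : r < 4) :
    W (4 * k + r) = 2 ^ (3 * k) * W k * (if 2 ≤ r then 2 else 1) := by
  have e0 : W (4 * k) = 2 ^ (3 * k) * W k := by
    have : 4 * k = 2 * (2 * k) := by ring
    rw [this, W_two_mul, W_two_mul]
    ring
  have e2 : W (2 * k + 1) = 2 ^ k * W k := W_two_mul_add_one k
  interval_cases r
  · simpa using e0
  · have : 4 * k + 1 = 2 * (2 * k) + 1 := by ring
    rw [this, W_two_mul_add_one, W_two_mul]
    simp
    ring
  · have : 4 * k + 2 = 2 * (2 * k + 1) := by ring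
    rw [this, W_two_mul, e2]
    simp
    ring
  · have : 4 * k + 3 = 2 * (2 * k + 1) + 1 := by ring
    rw [this, W_two_mul_add_one, e2]
    simp
    ring

end Cfsg.Agent.Lib.Helper46.NilSym
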