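import Cfsg.Agent.Lib.Helper46.NilSym.NW1
import Cfsg.Agent.Lib.Helper46.NilSym.NW2

set_option autoImplicit false

/-! Ladder NILSYM, rung NP1 (helper41). -/

namespace Cfsg.Agent.Lib.Helper46.NilSym

theorem np1_W0 : W 0 = 1 := by simp [W]
theorem np1_W1 : W 1 = 1 := by simp [W]
theorem np1_W2 : W 2 = 2 := by have := W_two_mul 1; rw [np1_W1] at this; simpa using this
theorem np1_W3 : W 3 = 2 := by have := W_two_mul_add_one 1; rw [np1_W1] at this; simpa using this
theorem np1_W4 : W 4 = 8 := by have := W_two_mul 2; rw [np1_W2] at this; simpa using this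
theorem np1_W5 : W 5 = 8 := by have := W_two_mul_add_one 2; rw [np1_W2] at this; simpa using this
theorem np1_W6 : W 6 = 16 := by have := W_two_mul 3; rw [np1_W3] at this; simpa using this
theorem np1_W7 : W 7 = 16 := by have := W_two_mul_add_one 3; rw [np1_W3] at this; simpa using this
theorem np1_W8 : W 8 = 128 := by have := W_two_mul 4; rw [np1_W4] at this; simpa using this
theorem np1_W9 : W 9 = 128 := by have := W_two_mul_add_one 4; rw [np1_W4] at this; simpa using this
theorem np1_W10 : W 10 = 256 := by have := W_two_mul 5; rw [np1_W5] at this; simpa using this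
theorem np1_W11 : W 11 = 256 := by
  have := W_two_mul_add_one 5; rw [np1_W5] at this; simpa using this

theorem succ_le_W (n : ℕ) (hn : 4 ≤ n) : n + 1 ≤ W n := by
  induction n using Nat.strong_induction_on with
  | _ n ih =>
    rcases Nat.lt_or_ge n 8 with h | h
    · interval_cases n
      · rw [np1_W4]; norm_num
      · rw [np1_W5]; norm_num
      · rw [np1_W6]; norm_num
      · rw [np1_W7]; norm_num
    · obtain ⟨m, rfl⟩ : ∃ m, n = m + 4 := ⟨n - 4, by omega⟩
      have h1 := ih m (by omega) (by omega)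
      have h2 := W_mul_le m 4
      rw [np1_W4] at h2
      omega

theorem two_mul_le_W (n : ℕ) (hn : 6 ≤ n) : 2 * n ≤ W n := by
  induction n using Nat.strong_induction_on with
  | _ n ih =>
    rcases Nat.lt_or_ge n 10 with h | h
    · interval_cases n
      · rw [np1_W6]; norm_num
      · rw [np1_W7]; norm_num
      · rw [np1_W8]; norm_num
      · rw [np1_W9]; norm_num
    · obtain ⟨m, rfl⟩ : ∃ m, n = m + 4 := ⟨n - 4, by omega⟩
      have h1 := ih m (by omega) (by omega)
      have h2 := W_mul_le m 4
      rw [np1_W4] at h2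
      omega

theorem np1_three (k : ℕ) (hk : 8 ≤ k) : 3 ^ k ≤ 2 ^ k * W k := by
  induction k using Nat.strong_induction_on with
  | _ k ih =>
    rcases Nat.lt_or_ge k 12 with h | h
    · interval_cases k
      · rw [np1_W8]; norm_num
      · rw [np1_W9]; norm_num
      · rw [np1_W10]; norm_num
      · rw [np1_W11]; norm_num
    · obtain ⟨m, rfl⟩ : ∃ m, k = m + 4 := ⟨k - 4, by omega⟩
      have h1 := ih m (by omega) (by omega)
      have h2 := W_mul_le m 4
      rw [np1_W4] at h2
      calc 3 ^ (m + 4) = 81 * 3 ^ m := by ring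
        _ ≤ 128 * (2 ^ m * W m) := Nat.mul_le_mul (by norm_num) h1
        _ = 2 ^ (m + 4) * (W m * 8) := by ring
        _ ≤ 2 ^ (m + 4) * W (m + 4) := Nat.mul_le_mul_left _ h2

theorem pow_le_W (p k : ℕ) (h : 5 ≤ p ∨ (p = 3 ∧ 8 ≤ k)) : p ^ k ≤ W ((p - 1) * k) := by
  rcases h with h | ⟨rfl, hk⟩
  · have h1 : p ≤ W (p - 1) := by
      have := succ_le_W (p - 1) (by omega)
      omega
    exact (Nat.pow_le_pow_left h1 k).trans (W_pow_le _ _)
  · have : (3 - 1) * k = 2 * k := by norm_num
    rw [this, W_two_mul]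
    exact np1_three k hk

end Cfsg.Agent.Lib.Helper46.NilSym
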