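import Cfsg.Agent.Lib.Helper46.NilSym.NF1
import Cfsg.Agent.Lib.Helper46.NilSym.NP1

set_option autoImplicit false

/-! Ladder NILSYM, rung NE1 (helper41). -/

namespace Cfsg.Agent.Lib.Helper46.NilSym

theorem ne1_F0 : F 0 = 1 := by norm_num [F, np1_W0]
theorem ne1_F1 : F 1 = 1 := by norm_num [F, np1_W1]
theorem ne1_F2 : F 2 = 2 := by norm_num [F, np1_W2]
theorem ne1_F3 : F 3 = 3 := by norm_num [F, np1_W0]
theorem ne1_F5 : F 5 = 8 := by norm_num [F, np1_W5]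
theorem ne1_F6 : F 6 = 16 := by norm_num [F, np1_W6]
theorem ne1_F9 : F 9 = 128 := by norm_num [F, np1_W9]

theorem ne1_even (n : ℕ) (h0 : n ≠ 0) (h1 : n ≠ 1) (h3 : n ≠ 3) : 2 ∣ F n := by
  obtain ⟨k, r, hr, rfl⟩ := nf1_split n
  rcases Nat.eq_zero_or_pos k with rfl | hk
  · have : r = 2 := by omega
    subst this
    rw [show 4 * 0 + 2 = 2 from rfl, ne1_F2]
  · rw [F_eq k r hr, mul_assoc]
    exact Dvd.dvd.mul_right (dvd_pow_self 2 (by omega)) _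

theorem ne1_E_eq (n : ℕ) (h0 : n ≠ 0) (h1 : n ≠ 1) (h3 : n ≠ 3) (h5 : n ≠ 5) (h6 : n ≠ 6)
    (h9 : n ≠ 9) : E n = F n / 2 := by
  simp [E, h0, h1, h3, h5, h6, h9]

theorem two_E_eq (n : ℕ) (h0 : n ≠ 0) (h1 : n ≠ 1) (h3 : n ≠ 3) (h5 : n ≠ 5) (h6 : n ≠ 6) (h9 : n ≠ 9) :
    2 * E n = F n := by
  rw [ne1_E_eq n h0 h1 h3 h5 h6 h9]
  exact Nat.mul_div_cancel' (ne1_even n h0 h1 h3)

theorem ne1_cases (n : ℕ) : n = 0 ∨ n = 1 ∨ n = 3 ∨ n = 5 ∨ n = 6 ∨ n = 9 ∨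
    (n ≠ 0 ∧ n ≠ 1 ∧ n ≠ 3 ∧ n ≠ 5 ∧ n ≠ 6 ∧ n ≠ 9) := by omega

theorem E_le_F (n : ℕ) : E n ≤ F n := by
  rcases ne1_cases n with rfl | rfl | rfl | rfl | rfl | rfl | ⟨h0, h1, h3, h5, h6, h9⟩
  · rw [ne1_F0]; simp [E]
  · rw [ne1_F1]; simp [E]
  · rw [ne1_F3]; simp [E]
  · rw [ne1_F5]; simp [E]
  · rw [ne1_F6]; simp [E]
  · rw [ne1_F9]; simp [E]
  · rw [← two_E_eq n h0 h1 h3 h5 h6 h9]; omega

theorem F_le_two_E (n : ℕ) : F n ≤ 2 * E n := by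
  rcases ne1_cases n with rfl | rfl | rfl | rfl | rfl | rfl | ⟨h0, h1, h3, h5, h6, h9⟩
  · rw [ne1_F0]; simp [E]
  · rw [ne1_F1]; simp [E]
  · rw [ne1_F3]; simp [E]
  · rw [ne1_F5]; simp [E]
  · rw [ne1_F6]; simp [E]
  · rw [ne1_F9]; simp [E]
  · rw [← two_E_eq n h0 h1 h3 h5 h6 h9]

end Cfsg.Agent.Lib.Helper46.NilSym
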