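import Cfsg.Agent.Lib.Helper46.NilSym.NT3
import Cfsg.Agent.Lib.Helper46.NilSym.NE1

set_option autoImplicit false

/-! Ladder NILSYM, rung NE2 (helper41). -/

namespace Cfsg.Agent.Lib.Helper46.NilSym

theorem ne2_W12 : W 12 = 1024 := by have := W_two_mul 6; rw [np1_W6] at this; simpa using this
theorem ne2_W14 : W 14 = 2048 := by have := W_two_mul 7; rw [np1_W7] at this; simpa using this
theorem ne2_W18 : W 18 = 65536 := by have := W_two_mul 9; rw [np1_W9] at this; simpa using this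

theorem ne2_E0 : E 0 = 1 := by simp [E]
theorem ne2_E1 : E 1 = 1 := by simp [E]
theorem ne2_E2 : E 2 = 1 := by norm_num [E, F, np1_W2]
theorem ne2_E3 : E 3 = 3 := by simp [E]
theorem ne2_E4 : E 4 = 4 := by norm_num [E, F, np1_W4]
theorem ne2_E5 : E 5 = 5 := by simp [E]
theorem ne2_E6 : E 6 = 9 := by simp [E]
theorem ne2_E7 : E 7 = 12 := by norm_num [E, F, np1_W4]
theorem ne2_E8 : E 8 = 64 := by norm_num [E, F, np1_W8]
theorem ne2_E9 : E 9 = 81 := by simp [E]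
theorem ne2_E10 : E 10 = 128 := by norm_num [E, F, np1_W10]
theorem ne2_E11 : E 11 = 192 := by norm_num [E, F, np1_W8]
theorem ne2_E12 : E 12 = 512 := by norm_num [E, F, ne2_W12]
theorem ne2_E14 : E 14 = 1024 := by norm_num [E, F, ne2_W14]
theorem ne2_E15 : E 15 = 1536 := by norm_num [E, F, ne2_W12]
theorem ne2_E18 : E 18 = 32768 := by norm_num [E, F, ne2_W18]

theorem ne2_gen (c k : ℕ) (h : 2 * (tau c * E k) ≤ F c * F k) : tau c * E k ≤ E (c + k) := by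
  have h1 := F_mul_le c k
  have h2 := F_le_two_E (c + k)
  omega

theorem tau_mul_E_le (c k : ℕ) (hc : Odd c) : tau c * E k ≤ E (c + k) := by
  have hc1 : 1 ≤ c := by
    obtain ⟨m, rfl⟩ := hc
    omega
  by_cases hk : k ≠ 0 ∧ k ≠ 1 ∧ k ≠ 3 ∧ k ≠ 5 ∧ k ≠ 6 ∧ k ≠ 9
  · obtain ⟨h0, h1, h3, h5, h6, h9⟩ := hk
    apply ne2_gen
    calc 2 * (tau c * E k) = tau c * (2 * E k) := by ring
      _ = tau c * F k := by rw [two_E_eq k h0 h1 h3 h5 h6 h9]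
      _ ≤ F c * F k := Nat.mul_le_mul_right _ (tau_le_F c hc1)
  by_cases hcc : c ≠ 1 ∧ c ≠ 3 ∧ c ≠ 5 ∧ c ≠ 9
  · obtain ⟨h1, h3, h5, h9⟩ := hcc
    apply ne2_gen
    calc 2 * (tau c * E k) = (2 * tau c) * E k := by ring
      _ ≤ F c * F k := Nat.mul_le_mul (two_tau_le_F c hc h1 h3 h5 h9) (E_le_F k)
  have hk' : k = 0 ∨ k = 1 ∨ k = 3 ∨ k = 5 ∨ k = 6 ∨ k = 9 := by omega
  have hc' : c = 1 ∨ c = 3 ∨ c = 5 ∨ c = 9 := by omega
  rcases hc' with rfl | rfl | rfl | rfl <;>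
  rcases hk' with rfl | rfl | rfl | rfl | rfl | rfl <;>
  norm_num [tau_one, tau_three, tau_five, tau_nine, ne2_E0, ne2_E1, ne2_E2, ne2_E3, ne2_E4, ne2_E5,
    ne2_E6, ne2_E7, ne2_E8, ne2_E9, ne2_E10, ne2_E11, ne2_E12, ne2_E14, ne2_E15, ne2_E18]

end Cfsg.Agent.Lib.Helper46.NilSym
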