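import Cfsg.Agent.Lib.Helper46.NilSym.NW1
import Cfsg.Agent.Lib.Helper46.NilSym.NW2

set_option autoImplicit false

/-! Ladder NILSYM, rung NF1 (helper41). -/

namespace Cfsg.Agent.Lib.Helper46.NilSym

theorem F_eq (k r : ℕ) (hr : r < 4) : F (4 * k + r) = 2 ^ (3 * k) * W k * fr r := by
  have hm : (4 * k + r) % 4 = r := by omega
  unfold F
  rw [hm]
  interval_cases r
  · rw [if_neg (by norm_num), W_four k 0 (by norm_num)]; simp [fr]
  · rw [if_neg (by norm_num), W_four k 1 (by norm_num)]; simp [fr]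
  · rw [if_neg (by norm_num), W_four k 2 (by norm_num)]; simp [fr]
  · rw [if_pos rfl, Nat.add_sub_cancel]
    have := W_four k 0 (by norm_num)
    rw [add_zero] at this
    rw [this]; simp [fr]; ring

theorem nf1_fr_pos (r : ℕ) : 0 < fr r := by
  unfold fr
  split_ifs <;> norm_num

theorem nf1_split (n : ℕ) : ∃ k r, r < 4 ∧ n = 4 * k + r :=
  ⟨n / 4, n % 4, Nat.mod_lt _ (by norm_num), (Nat.div_add_mod n 4).symm⟩

theorem F_pos (n : ℕ) : 0 < F n := by
  obtain ⟨k, r, hr, rfl⟩ := nf1_split n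
  rw [F_eq k r hr]
  have := W_pos k
  have := nf1_fr_pos r
  positivity

theorem W_le_F (n : ℕ) : W n ≤ F n := by
  obtain ⟨k, r, hr, rfl⟩ := nf1_split n
  rw [F_eq k r hr, W_four k r hr]
  apply Nat.mul_le_mul_left
  interval_cases r <;> simp [fr]

theorem nf1_fr_a : ∀ r < 4, ∀ s < 4, r + s < 4 → fr r * fr s ≤ fr (r + s) := by decide

theorem nf1_fr_b : ∀ r < 4, ∀ s < 4, 4 ≤ r + s → fr r * fr s ≤ 8 * fr (r + s - 4) := by decide

theorem F_mul_le (a b : ℕ) : F a * F b ≤ F (a + b) := by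
  obtain ⟨k, r, hr, rfl⟩ := nf1_split a
  obtain ⟨l, s, hs, rfl⟩ := nf1_split b
  rcases Nat.lt_or_ge (r + s) 4 with h | h
  · have e : 4 * k + r + (4 * l + s) = 4 * (k + l) + (r + s) := by ring
    rw [e, F_eq _ _ hr, F_eq _ _ hs, F_eq _ _ h]
    calc 2 ^ (3 * k) * W k * fr r * (2 ^ (3 * l) * W l * fr s)
        = 2 ^ (3 * (k + l)) * (W k * W l) * (fr r * fr s) := by ring
      _ ≤ 2 ^ (3 * (k + l)) * W (k + l) * fr (r + s) :=
        Nat.mul_le_mul (Nat.mul_le_mul_left _ (W_mul_le k l)) (nf1_fr_a r hr s hs h)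
  · have e : 4 * k + r + (4 * l + s) = 4 * (k + l + 1) + (r + s - 4) := by omega
    have h4 : r + s - 4 < 4 := by omega
    rw [e, F_eq _ _ hr, F_eq _ _ hs, F_eq _ _ h4]
    calc 2 ^ (3 * k) * W k * fr r * (2 ^ (3 * l) * W l * fr s)
        = 2 ^ (3 * (k + l)) * (W k * W l) * (fr r * fr s) := by ring
      _ ≤ 2 ^ (3 * (k + l)) * W (k + l + 1) * (8 * fr (r + s - 4)) :=
        Nat.mul_le_mul (Nat.mul_le_mul_left _ ((W_mul_le k l).trans (W_mono (Nat.le_succ _))))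
          (nf1_fr_b r hr s hs h)
      _ = 2 ^ (3 * (k + l + 1)) * W (k + l + 1) * fr (r + s - 4) := by ring

theorem F_mono {a b : ℕ} (h : a ≤ b) : F a ≤ F b := by
  obtain ⟨c, rfl⟩ := Nat.exists_eq_add_of_le h
  exact (Nat.le_mul_of_pos_right _ (F_pos c)).trans (F_mul_le a c)

end Cfsg.Agent.Lib.Helper46.NilSym
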