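import Cfsg.Agent.Lib.Helper46.NilSym.NW1

set_option autoImplicit false

/-! Ladder NILSYM, rung NP2 (helper41). -/

namespace Cfsg.Agent.Lib.Helper46.NilSym

theorem tpp_zero (p : ℕ) : tpp p 0 = 1 := by
  unfold tpp
  simp

theorem tpp_pos (p a : ℕ) (hp : p.Prime) : 0 < tpp p a := by
  unfold tpp
  exact pow_pos hp.pos _

theorem tpp_succ (p a : ℕ) (hp : p.Prime) : tpp p (a + 1) = tpp p a * p ^ (p ^ a) := by
  have : Fact p.Prime := ⟨hp⟩
  unfold tpp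
  rw [pow_succ' p a, padicValNat_factorial_mul, pow_add]

theorem tpp_step (p a c : ℕ) (hp : p.Prime) (h1 : c * tpp p a ≤ W (p ^ a))
    (h2 : p ^ (p ^ a) ≤ W ((p - 1) * p ^ a)) : c * tpp p (a + 1) ≤ W (p ^ (a + 1)) := by
  rw [tpp_succ p a hp, ← mul_assoc]
  have e : p ^ (a + 1) = p ^ a + (p - 1) * p ^ a := by
    obtain ⟨q, rfl⟩ : ∃ q, p = q + 1 := ⟨p - 1, (Nat.succ_pred_eq_of_pos hp.pos).symm⟩
    rw [Nat.add_sub_cancel, pow_succ]
    ring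
  rw [e]
  exact (Nat.mul_le_mul h1 h2).trans (W_mul_le _ _)

end Cfsg.Agent.Lib.Helper46.NilSym
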