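import Cfsg.Agent.Lib.Helper46.NilSym.NP1
import Cfsg.Agent.Lib.Helper46.NilSym.NP2

set_option autoImplicit false

/-! Ladder NILSYM, rung NP3 (helper41). -/

namespace Cfsg.Agent.Lib.Helper46.NilSym

theorem np3_ind (p c a0 : ℕ) (hp : p.Prime)
    (hpow : ∀ a, a0 ≤ a → p ^ (p ^ a) ≤ W ((p - 1) * p ^ a))
    (hbase : c * tpp p a0 ≤ W (p ^ a0)) : ∀ a, a0 ≤ a → c * tpp p a ≤ W (p ^ a) := by
  intro a ha
  induction a, ha using Nat.le_induction with
  | base => exact hbase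
  | succ a ha ih => exact tpp_step p a c hp ih (hpow a ha)

theorem np3_tpp_one (p : ℕ) (hp : p.Prime) : tpp p 1 = p := by
  rw [tpp_succ p 0 hp, tpp_zero]; simp

theorem np3_three_pow (a : ℕ) (ha : 2 ≤ a) : 8 ≤ 3 ^ a :=
  calc 8 ≤ 3 ^ 2 := by norm_num
    _ ≤ 3 ^ a := Nat.pow_le_pow_right (by norm_num) ha

theorem np3_cases (p : ℕ) (hp : p.Prime) : p = 2 ∨ p = 3 ∨ 5 ≤ p := by
  have h2 := hp.two_le
  rcases Nat.lt_or_ge p 5 with h | h
  · interval_cases p
    · exact Or.inl rfl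
    · exact Or.inr (Or.inl rfl)
    · exact absurd hp (by norm_num)
  · exact Or.inr (Or.inr h)

theorem np3_tpp32 : tpp 3 2 = 81 := by
  rw [tpp_succ 3 1 Nat.prime_three, np3_tpp_one 3 Nat.prime_three]; norm_num

theorem tpp_le_W (p a : ℕ) (hp : p.Prime) (h : ¬ (p = 3 ∧ a = 1)) : tpp p a ≤ W (p ^ a) := by
  rcases np3_cases p hp with rfl | rfl | h5
  · exact le_refl _
  · rcases Nat.lt_or_ge a 2 with ha | ha
    · interval_cases a
      · rw [tpp_zero]; exact W_pos _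
      · exact absurd ⟨rfl, rfl⟩ h
    · have := np3_ind 3 1 2 hp (fun a ha => pow_le_W 3 (3 ^ a) (Or.inr ⟨rfl, np3_three_pow a ha⟩))
        (by rw [np3_tpp32]; norm_num [np1_W9]) a ha
      simpa using this
  · have := np3_ind p 1 0 hp (fun a _ => pow_le_W p (p ^ a) (Or.inl h5))
      (by rw [tpp_zero]; exact W_pos _) a (Nat.zero_le _)
    simpa using this

theorem np3_W25 : W 25 = 2 ^ 22 := by
  have h12 := W_two_mul 6
  rw [np1_W6] at h12
  have h25 := W_two_mul_add_one 12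
  norm_num at h12 h25
  rw [h25, h12]; norm_num

theorem np3_W27 : W 27 = 2 ^ 23 := by
  have h13 := W_two_mul_add_one 6
  rw [np1_W6] at h13
  have h27 := W_two_mul_add_one 13
  norm_num at h13 h27
  rw [h27, h13]; norm_num

theorem two_tpp_le_W (p a : ℕ) (hp : p.Prime) (h2 : p ≠ 2) (ha : 1 ≤ a) (h31 : ¬ (p = 3 ∧ a = 1))
    (h51 : ¬ (p = 5 ∧ a = 1)) (h32 : ¬ (p = 3 ∧ a = 2)) : 2 * tpp p a ≤ W (p ^ a) := by
  rcases np3_cases p hp with rfl | rfl | h5
  · exact absurd rfl h2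
  · have ha3 : 3 ≤ a := by
      by_contra hcon
      have : a = 1 ∨ a = 2 := by omega
      rcases this with rfl | rfl
      · exact h31 ⟨rfl, rfl⟩
      · exact h32 ⟨rfl, rfl⟩
    refine np3_ind 3 2 3 hp
      (fun a ha => pow_le_W 3 (3 ^ a) (Or.inr ⟨rfl, np3_three_pow a (by omega)⟩)) ?_ a ha3
    rw [tpp_succ 3 2 hp, np3_tpp32]
    norm_num [np3_W27]
  · rcases Nat.lt_or_ge p 7 with h7 | h7
    · have hp5 : p = 5 := by
        interval_cases p
        · rfl
        · exact absurd hp (by norm_num)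
      subst hp5
      have ha2 : 2 ≤ a := by
        by_contra hcon
        have : a = 1 := by omega
        exact h51 ⟨rfl, this⟩
      refine np3_ind 5 2 2 hp (fun a _ => pow_le_W 5 (5 ^ a) (Or.inl h5)) ?_ a ha2
      rw [tpp_succ 5 1 hp, np3_tpp_one 5 hp]
      norm_num [np3_W25]
    · refine np3_ind p 2 1 hp (fun a _ => pow_le_W p (p ^ a) (Or.inl h5)) ?_ a ha
      rw [np3_tpp_one p hp, pow_one]
      exact two_mul_le_W p (by omega)

end Cfsg.Agent.Lib.Helper46.NilSym
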