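import Cfsg.Agent.Lib.Helper46.NilSym.NP2

set_option autoImplicit false

/-! Ladder NILSYM, rung NT1 (helper41). -/

namespace Cfsg.Agent.Lib.Helper46.NilSym

theorem tau_one : tau 1 = 1 := by
  unfold tau
  simp

theorem tau_pos (m : ℕ) : 0 < tau m := by
  unfold tau
  apply Finset.prod_pos
  intro p hp
  exact tpp_pos p _ (Nat.prime_of_mem_primeFactors (by simpa using hp))

theorem tau_prime_pow (p a : ℕ) (hp : p.Prime) : tau (p ^ a) = tpp p a := by
  unfold tau
  rw [Nat.Prime.factorization_pow hp, Finsupp.prod_single_index (tpp_zero p)]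

theorem tau_mul_of_coprime (a b : ℕ) (h : a.Coprime b) : tau (a * b) = tau a * tau b := by
  unfold tau
  rw [Nat.factorization_mul_of_coprime h]
  exact Finsupp.prod_add_index_of_disjoint (by simpa using h.disjoint_primeFactors) _

theorem tau_three : tau 3 = 3 := by
  have h := tau_prime_pow 3 1 Nat.prime_three
  rw [pow_one, tpp_succ 3 0 Nat.prime_three, tpp_zero] at h
  rw [h]; norm_num

theorem tau_five : tau 5 = 5 := by
  have h := tau_prime_pow 5 1 Nat.prime_five
  rw [pow_one, tpp_succ 5 0 Nat.prime_five, tpp_zero] at h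
  rw [h]; norm_num

theorem tau_nine : tau 9 = 81 := by
  have h := tau_prime_pow 3 2 Nat.prime_three
  rw [tpp_succ 3 1 Nat.prime_three, tpp_succ 3 0 Nat.prime_three, tpp_zero] at h
  norm_num at h
  exact h

end Cfsg.Agent.Lib.Helper46.NilSym
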