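import Cfsg.Agent.Lib.Helper46.NilSym.NF1
import Cfsg.Agent.Lib.Helper46.NilSym.NP3
import Cfsg.Agent.Lib.Helper46.NilSym.NT1

set_option autoImplicit false
set_option linter.unusedVariables false

/-! Ladder NILSYM, rung NT2 (helper41). -/

namespace Cfsg.Agent.Lib.Helper46.NilSym

theorem nt2_three (b : ℕ) (hb : 2 ≤ b) (h : tau b ≤ W b) : 3 * tau b ≤ W (3 * b) := by
  calc 3 * tau b ≤ W 4 * W b := Nat.mul_le_mul (by rw [np1_W4]; norm_num) h
    _ ≤ W (2 * b) * W b := Nat.mul_le_mul_right _ (W_mono (by omega))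
    _ ≤ W (2 * b + b) := W_mul_le _ _
    _ = W (3 * b) := by congr 1; ring

theorem nt2_aux (m : ℕ) : m ≠ 3 → tau m ≤ W m := by
  induction m using Nat.recOnPosPrimePosCoprime with
  | prime_pow p n hp hn =>
    intro h3
    rw [tau_prime_pow p n hp]
    apply tpp_le_W p n hp
    rintro ⟨rfl, rfl⟩
    exact h3 (by norm_num)
  | zero =>
    intro _
    rw [np1_W0]
    simp [tau]
  | one =>
    intro _
    rw [tau_one, np1_W1]
  | coprime a b ha hb hab iha ihb =>
    intro _
    rw [tau_mul_of_coprime a b hab]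
    by_cases ha3 : a = 3
    · subst ha3
      have hb3 : b ≠ 3 := by
        rintro rfl
        norm_num at hab
      rw [tau_three]
      exact nt2_three b hb (ihb hb3)
    by_cases hb3 : b = 3
    · subst hb3
      rw [tau_three, mul_comm, mul_comm a 3]
      exact nt2_three a ha (iha ha3)
    calc tau a * tau b ≤ W a * W b := Nat.mul_le_mul (iha ha3) (ihb hb3)
      _ ≤ W (a + b) := W_mul_le _ _
      _ ≤ W (a * b) := W_mono (by nlinarith)

theorem tau_le_W (m : ℕ) (hm : 1 ≤ m) (h3 : m ≠ 3) : tau m ≤ W m := nt2_aux m h3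

theorem tau_le_F (m : ℕ) (hm : 1 ≤ m) : tau m ≤ F m := by
  by_cases h3 : m = 3
  · subst h3
    rw [tau_three]
    have := F_eq 0 3 (by norm_num)
    simp only [mul_zero, zero_add, pow_zero, one_mul, np1_W0] at this
    rw [this]
    simp [fr]
  · exact (tau_le_W m hm h3).trans (W_le_F m)

end Cfsg.Agent.Lib.Helper46.NilSym
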