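import Cfsg.Agent.Lib.Helper46.NilSym.Defs

set_option autoImplicit false

/-! Ladder NILSYM, rung NW1 (helper41). -/

namespace Cfsg.Agent.Lib.Helper46.NilSym

theorem nw1_val_le_of_dvd (p : ℕ) [Fact p.Prime] {a b : ℕ} (hb : b ≠ 0) (h : a ∣ b) :
    padicValNat p a ≤ padicValNat p b :=
  (padicValNat_dvd_iff_le hb).1 (pow_padicValNat_dvd.trans h)

theorem W_pos (n : ℕ) : 0 < W n := by unfold W; positivity

theorem W_mul_le (a b : ℕ) : W a * W b ≤ W (a + b) := by
  have : Fact (Nat.Prime 2) := ⟨Nat.prime_two⟩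
  unfold W
  rw [← pow_add]
  apply Nat.pow_le_pow_right (by norm_num)
  rw [← padicValNat.mul (Nat.factorial_ne_zero a) (Nat.factorial_ne_zero b)]
  exact nw1_val_le_of_dvd 2 (Nat.factorial_ne_zero _) (Nat.factorial_mul_factorial_dvd_factorial_add a b)

theorem W_mono {a b : ℕ} (h : a ≤ b) : W a ≤ W b := by
  have : Fact (Nat.Prime 2) := ⟨Nat.prime_two⟩
  unfold W
  apply Nat.pow_le_pow_right (by norm_num)
  exact nw1_val_le_of_dvd 2 (Nat.factorial_ne_zero _) (Nat.factorial_dvd_factorial h)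

theorem W_pow_le (a k : ℕ) : W a ^ k ≤ W (a * k) := by
  induction k with
  | zero => rw [pow_zero, Nat.mul_zero]; exact W_pos 0
  | succ k ih =>
    rw [pow_succ, Nat.mul_succ]
    exact (Nat.mul_le_mul_right _ ih).trans (W_mul_le _ _)

end Cfsg.Agent.Lib.Helper46.NilSym
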