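import Mathlib
import Cfsg.Agent.Lib.Helper46.NilSym.Defs
import Cfsg.Agent.Lib.Helper46.NilSym.GO
import Cfsg.Agent.Lib.Helper46.NilSym.NW1
import Cfsg.Agent.Lib.Helper46.NilSym.NF1
import Cfsg.Agent.Lib.Helper46.NilSym.NT2
import Cfsg.Agent.Lib.Helper46.NilSym.NE2

set_option autoImplicit false

namespace Cfsg.Agent.Lib.Helper46.NilSym
open Equiv

variable {α : Type}

theorem sym_bound [Finite α] (N : Subgroup (Perm α)) (hN : Group.IsNilpotent N) :
    Nat.card N ≤ F (Nat.card α) :=
  orb_bound Set.univ F (F_pos 0)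
    (fun m _ hm k => (Nat.mul_le_mul_right _ (tau_le_F m hm)).trans (F_mul_le m k)) α N hN
    (fun _ => Set.mem_univ _)

theorem no3_bound [Finite α] (N : Subgroup (Perm α)) (hN : Group.IsNilpotent N)
    (h3 : ∀ a : α, Nat.card (MulAction.orbit N a) ≠ 3) : Nat.card N ≤ W (Nat.card α) :=
  orb_bound {m | m ≠ 3} W (W_pos 0)
    (fun m h hm k => (Nat.mul_le_mul_right _ (tau_le_W m hm h)).trans (W_mul_le m k)) α N hN h3

theorem odd_bound [Finite α] (N : Subgroup (Perm α)) (hN : Group.IsNilpotent N)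
    (ho : Odd (Nat.card N)) : Nat.card N ≤ E (Nat.card α) :=
  orb_bound {m | Odd m} E (by simp [E])
    (fun m h _ k => tau_mul_E_le m k h) α N hN
    (fun a => by
      have hd : Nat.card (MulAction.orbit N a) ∣ Nat.card N := by
        rw [Nat.card_coe_set_eq, ← MulAction.index_stabilizer]
        exact Subgroup.index_dvd_card _
      exact Odd.of_dvd_nat ho hd)

end Cfsg.Agent.Lib.Helper46.NilSym
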