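import Mathlib
import Cfsg.Agent.Lib.Helper46.NilSym.Defs
import Cfsg.Agent.Lib.Helper46.NilSym.GB
import Cfsg.Agent.Lib.Helper46.NilSym.GA2
import Cfsg.Agent.Lib.Helper46.NilSym.GA3
import Cfsg.Agent.Lib.Helper46.NilSym.NE1

set_option autoImplicit false

namespace Cfsg.Agent.Lib.Helper46.NilSym
open Equiv

variable {α : Type}

theorem alt_bound [Fintype α] [DecidableEq α] (N : Subgroup (Perm α)) (hN : Group.IsNilpotent N)
    (hA : N ≤ alternatingGroup α) : Nat.card N ≤ E (Nat.card α) := by
  classical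
  rcases Nat.even_or_odd (Nat.card N) with he | ho
  · obtain ⟨M, hM, hNM, hMA⟩ := alt_even_extend N hN (even_iff_two_dvd.1 he)
    have h1 := two_mul_card_inf_alt M hMA
    have h2 : Nat.card N ≤ Nat.card (M ⊓ alternatingGroup α : Subgroup (Perm α)) :=
      Subgroup.card_le_of_le (le_inf hNM hA)
    have h3 := sym_bound M hM
    have h4 := F_le_two_E (Nat.card α)
    omega
  · exact odd_bound N hN ho

end Cfsg.Agent.Lib.Helper46.NilSym
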