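import Mathlib
import Cfsg.Agent.Lib.Helper46.NilSym.Defs

set_option autoImplicit false

namespace Cfsg.Agent.Lib.Helper46.NilSym
open Equiv

theorem card_sylow_two_perm (n : ℕ) (P : Sylow 2 (Perm (Fin n))) : Nat.card P = W n := by
  rw [Sylow.card_eq_multiplicity, Nat.card_perm, Nat.card_fin, Nat.factorization_def _ Nat.prime_two]
  rfl

theorem card_sylow_two_alt (n : ℕ) (hn : 2 ≤ n) (P : Sylow 2 (alternatingGroup (Fin n))) :
    2 * Nat.card P = W n := by
  have : Nontrivial (Fin n) := Fin.nontrivial_iff_two_le.mpr hn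
  have h2 : 2 * Nat.card (alternatingGroup (Fin n)) = n.factorial := by
    rw [Nat.card_eq_fintype_card, two_mul_card_alternatingGroup, Fintype.card_perm,
      Fintype.card_fin]
  have hpos : Nat.card (alternatingGroup (Fin n)) ≠ 0 := Nat.card_pos.ne'
  rw [Sylow.card_eq_multiplicity, Nat.factorization_def _ Nat.prime_two]
  unfold W
  rw [← h2, padicValNat.mul (by norm_num) hpos, padicValNat.self (by norm_num), pow_add, pow_one]

end Cfsg.Agent.Lib.Helper46.NilSym
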