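import Mathlib
import Cfsg.Agent.Lib.Helper46.NilSym.Defs

set_option autoImplicit false

namespace Cfsg.Agent.Lib.Helper46.NilSym
open Equiv

variable {α : Type}

theorem alt_map_facts [Fintype α] [DecidableEq α] (N : Subgroup (alternatingGroup α))
    (hN : Group.IsNilpotent N) :
    Group.IsNilpotent (N.map (alternatingGroup α).subtype) ∧
      Nat.card (N.map (alternatingGroup α).subtype) = Nat.card N ∧
      N.map (alternatingGroup α).subtype ≤ alternatingGroup α :=
  ⟨Group.nilpotent_of_mulEquiv
      (N.equivMapOfInjective (alternatingGroup α).subtype (Subgroup.subtype_injective _)),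
    Subgroup.card_map_of_injective (Subgroup.subtype_injective _), Subgroup.map_subtype_le _⟩

theorem alt_conj_of_map [Fintype α] [DecidableEq α] (N₁ N₂ : Subgroup (alternatingGroup α))
    (g : Perm α) (hg : g ∈ alternatingGroup α)
    (h : N₂.map (alternatingGroup α).subtype =
      (N₁.map (alternatingGroup α).subtype).map (MulAut.conj g).toMonoidHom) :
    N₂ = N₁.map (MulAut.conj (⟨g, hg⟩ : alternatingGroup α)).toMonoidHom := by
  apply Subgroup.map_injective (Subgroup.subtype_injective (alternatingGroup α))
  rw [h, Subgroup.map_map, Subgroup.map_map]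
  congr 1

end Cfsg.Agent.Lib.Helper46.NilSym
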