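import Mathlib
import Cfsg.Agent.Lib.Helper46.NilSym.Defs
import Cfsg.Agent.Lib.Helper46.NilSym.GB
import Cfsg.Agent.Lib.Helper46.NilSym.GT5
import Cfsg.Agent.Lib.Helper46.NilSym.GR1
import Cfsg.Agent.Lib.Helper46.NilSym.GR2
import Cfsg.Agent.Lib.Helper46.NilSym.GD
import Cfsg.Agent.Lib.Helper46.NilSym.NW1
import Cfsg.Agent.Lib.Helper46.NilSym.NW2
import Cfsg.Agent.Lib.Helper46.NilSym.NT1

set_option autoImplicit false

namespace Cfsg.Agent.Lib.Helper46.NilSym
open Equiv

variable {α : Type}

theorem ext_struct [Fintype α] [DecidableEq α] (N : Subgroup (Perm α)) (hN : Group.IsNilpotent N)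
    (hn : Nat.card α % 4 = 3) (hc : Nat.card N = F (Nat.card α)) :
    ∃ (z : Perm α) (T : Subgroup (Perm α)), z.IsThreeCycle ∧ (∀ x ∈ T, x * z = z * x) ∧
      Nat.card T = W (Nat.card α - 3) ∧ N = T ⊔ Subgroup.zpowers z := by
  classical
  have f2 : Fact (Nat.Prime 2) := ⟨Nat.prime_two⟩
  have f3 : Fact (Nat.Prime 3) := ⟨Nat.prime_three⟩
  set n := Nat.card α with hn0
  obtain ⟨k, hk⟩ : ∃ k, n = 4 * k + 3 := ⟨n / 4, by omega⟩
  have hn3 : n - 3 = 4 * k + 0 := by omega
  have hF : F n = 3 * W (n - 3) := by simp [F, hn]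
  have hWn : W n = 2 * W (n - 3) := by
    rw [hn3, hk, W_four k 3 (by norm_num), W_four k 0 (by norm_num)]
    simp
    ring
  have hWpos : 0 < W (n - 3) := W_pos _
  -- an orbit of size three
  obtain ⟨a, ha⟩ : ∃ a : α, Nat.card (MulAction.orbit N a) = 3 := by
    by_contra h
    push Not at h
    have := no3_bound N hN h
    rw [← hn0] at this
    omega
  set p : α → Prop := fun x => x ∈ MulAction.orbit N a with hp
  have hcp : Nat.card {x // p x} = 3 := ha
  have hcnp : Nat.card {x // ¬ p x} = n - 3 := by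
    have := Fintype.card_subtype_compl p
    rw [← Nat.card_eq_fintype_card, ← Nat.card_eq_fintype_card, ← Nat.card_eq_fintype_card,
      hcp] at this
    exact this
  have hne : Nonempty {x // p x} := ⟨⟨a, MulAction.mem_orbit_self a⟩⟩
  have b1 : Nat.card (resHom N p (orbit_inv N a)).range ≤ 3 := by
    have := trans_card_le_tau (resHom N p (orbit_inv N a)).range
      (res_range_nilpotent N hN p (orbit_inv N a)) (res_pretransitive N a)
    rw [hcp, tau_three] at this
    exact this
  have b2 : Nat.card (resHom N (fun x => ¬ p x) (not_inv N p (orbit_inv N a))).range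
      ≤ W (n - 3) := by
    have := sym_bound (resHom N (fun x => ¬ p x) (not_inv N p (orbit_inv N a))).range
      (res_range_nilpotent N hN _ (not_inv N p (orbit_inv N a)))
    rw [hcnp] at this
    have hF' : F (n - 3) = W (n - 3) := by
      have : (n - 3) % 4 ≠ 3 := by omega
      simp [F, this]
    rw [hF'] at this
    exact this
  have b3 := card_le_res_mul_res N p (orbit_inv N a)
  have b4 : Nat.card (resHom N (fun x => ¬ p x) (not_inv N p (orbit_inv N a))).range
      = W (n - 3) := by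
    apply le_antisymm b2
    rw [hc, hF] at b3
    have := b3.trans (Nat.mul_le_mul_right _ b1)
    omega
  -- Sylow decomposition
  obtain ⟨P, Q, hP, hQ, hcomm, hsup, hcard, -⟩ := nil_dec N hN 2
  obtain ⟨m, hm⟩ := IsPGroup.iff_card.1 hP
  set e := padicValNat 2 (n - 3).factorial with he
  have hW : W (n - 3) = 2 ^ e := rfl
  have hprod : 2 ^ m * Nat.card Q = 3 * 2 ^ e := by
    rw [← hm, ← hcard, hc, hF, hW]
  have hme : m = e := by
    apply le_antisymm
    · have h1 : 2 ^ m ∣ 3 * 2 ^ e := ⟨_, hprod.symm⟩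
      have h2 : Nat.Coprime (2 ^ m) 3 := Nat.Coprime.pow_left _ (by norm_num)
      exact (Nat.pow_dvd_pow_iff_le_right (by norm_num)).1 (h2.dvd_of_dvd_mul_left h1)
    · have h1 : 2 ^ e ∣ 2 ^ m * Nat.card Q := ⟨3, by rw [hprod]; ring⟩
      have h2 : Nat.Coprime (2 ^ e) (Nat.card Q) := Nat.Coprime.pow_left _ hQ.symm
      exact (Nat.pow_dvd_pow_iff_le_right (by norm_num)).1 (h2.dvd_of_dvd_mul_right h1)
  have hQ3 : Nat.card Q = 3 := by
    rw [hme] at hprod
    have : 0 < 2 ^ e := by positivity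
    nlinarith
  obtain ⟨z, hz⟩ := exists_prime_orderOf_dvd_card' 3 (by rw [hQ3] : 3 ∣ Nat.card Q)
  have hz' : orderOf (z : Perm α) = 3 := by rw [Subgroup.orderOf_coe, hz]
  have hQz : Subgroup.zpowers (z : Perm α) = Q := by
    apply Subgroup.eq_of_le_of_card_ge
    · rw [Subgroup.zpowers_le]; exact z.2
    · rw [Nat.card_zpowers, hz', hQ3]
  have hzN : (z : Perm α) ∈ N := hsup ▸ Subgroup.mem_sup_right z.2
  -- z is trivial off the orbit
  have hres : resHom N (fun x => ¬ p x) (not_inv N p (orbit_inv N a)) ⟨z, hzN⟩ = 1 := by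
    set f := resHom N (fun x => ¬ p x) (not_inv N p (orbit_inv N a)) with hf
    have h1 : orderOf (f ⟨z, hzN⟩) ∣ 3 := by
      apply orderOf_dvd_of_pow_eq_one
      rw [← map_pow]
      have : (⟨z, hzN⟩ : N) ^ 3 = 1 := by
        apply Subtype.ext
        simp only [Subgroup.coe_pow, Subgroup.coe_one]
        rw [← hz']; exact pow_orderOf_eq_one _
      rw [this, map_one]
    have h2 : orderOf (f ⟨z, hzN⟩) ∣ 2 ^ e := by
      have h3 : orderOf (⟨f ⟨z, hzN⟩, ⟨_, rfl⟩⟩ : f.range) ∣ Nat.card f.range :=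
        orderOf_dvd_natCard _
      rw [b4, hW, ← Subgroup.orderOf_coe] at h3
      exact h3
    have h3 : orderOf (f ⟨z, hzN⟩) ∣ 1 := by
      have : Nat.Coprime 3 (2 ^ e) := Nat.Coprime.pow_right _ (by norm_num)
      rw [← this]
      exact Nat.dvd_gcd h1 h2
    exact orderOf_eq_one_iff.1 (Nat.dvd_one.1 h3)
  have hfix : ∀ x, ¬ p x → (z : Perm α) x = x := by
    intro x hx
    have := congrArg (fun g : Perm {x // ¬ p x} => ((g ⟨x, hx⟩ : {x // ¬ p x}) : α)) hres
    simpa using this
  have hsupp : (z : Perm α).support ⊆ Finset.univ.filter p := by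
    intro x hx
    simp only [Finset.mem_filter, Finset.mem_univ, true_and]
    by_contra h
    exact (Perm.mem_support.1 hx) (hfix x h)
  have hcs : (z : Perm α).support.card ≤ 3 := by
    have := Finset.card_le_card hsupp
    rw [← Fintype.card_subtype, ← Nat.card_eq_fintype_card, hcp] at this
    exact this
  have h3c : (z : Perm α).IsThreeCycle := by
    obtain ⟨j, hj⟩ := Perm.cycleType_prime_order (σ := (z : Perm α))
      (by rw [hz']; exact Nat.prime_three)
    rw [hz'] at hj
    have hsum := Perm.sum_cycleType (z : Perm α)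
    rw [hj] at hsum
    simp only [Multiset.sum_replicate, smul_eq_mul] at hsum
    have hj0 : j = 0 := by omega
    rw [hj0] at hj
    exact hj
  refine ⟨z, P, h3c, fun x hx => hcomm x hx z z.2, ?_, ?_⟩
  · rw [hm, hme, hW]
  · rw [hQz, hsup]

end Cfsg.Agent.Lib.Helper46.NilSym
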