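import Mathlib
import Cfsg.Agent.Lib.Helper46.NilSym.Defs

set_option autoImplicit false

namespace Cfsg.Agent.Lib.Helper46.NilSym
open Equiv

variable {α : Type}

theorem card_centralizer_three_cycle [Fintype α] [DecidableEq α] (z : Perm α) (hz : z.IsThreeCycle) :
    Nat.card (Subgroup.centralizer {z}) = 3 * (Nat.card α - 3).factorial := by
  have h := Perm.nat_card_centralizer z
  have hc : z.cycleType = {3} := hz
  rw [h, hc]
  simp [Nat.card_eq_fintype_card, mul_comm]

end Cfsg.Agent.Lib.Helper46.NilSym
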