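import Mathlib
import Cfsg.Agent.Lib.Helper46.NilSym.Defs
import Cfsg.Agent.Lib.Helper46.NilSym.GS2

set_option autoImplicit false

namespace Cfsg.Agent.Lib.Helper46.NilSym
open Equiv
open scoped Pointwise

variable {α : Type}

theorem conj_in_centralizer [Fintype α] [DecidableEq α] (z : Perm α) (hz : z.IsThreeCycle)
    (T₁ T₂ : Subgroup (Perm α)) (h₁ : ∀ x ∈ T₁, x * z = z * x) (h₂ : ∀ x ∈ T₂, x * z = z * x)
    (c₁ : Nat.card T₁ = W (Nat.card α - 3)) (c₂ : Nat.card T₂ = W (Nat.card α - 3)) :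
    ∃ c : Perm α, c * z = z * c ∧ T₂ = T₁.map (MulAut.conj c).toMonoidHom := by
  classical
  have : Fact (Nat.Prime 2) := ⟨Nat.prime_two⟩
  set C : Subgroup (Perm α) := Subgroup.centralizer {z} with hC
  have hT₁ : T₁ ≤ C := by
    intro x hx
    rw [hC, Subgroup.mem_centralizer_singleton_iff]
    exact h₁ x hx
  have hT₂ : T₂ ≤ C := by
    intro x hx
    rw [hC, Subgroup.mem_centralizer_singleton_iff]
    exact h₂ x hx
  have hcardC : Nat.card C = 3 * (Nat.card α - 3).factorial := card_centralizer_three_cycle z hz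
  have hfac : (Nat.card C).factorization 2 = padicValNat 2 (Nat.card α - 3).factorial := by
    rw [hcardC, Nat.factorization_def _ Nat.prime_two,
      padicValNat.mul (by norm_num) (Nat.factorial_ne_zero _)]
    have : padicValNat 2 3 = 0 := padicValNat.eq_zero_of_not_dvd (by norm_num)
    omega
  have k₁ : Nat.card (T₁.subgroupOf C) = 2 ^ (Nat.card C).factorization 2 := by
    rw [Nat.card_congr (Subgroup.subgroupOfEquivOfLe hT₁).toEquiv, c₁, hfac]; rfl
  have k₂ : Nat.card (T₂.subgroupOf C) = 2 ^ (Nat.card C).factorization 2 := by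
    rw [Nat.card_congr (Subgroup.subgroupOfEquivOfLe hT₂).toEquiv, c₂, hfac]; rfl
  let S₁ : Sylow 2 C := Sylow.ofCard (T₁.subgroupOf C) k₁
  let S₂ : Sylow 2 C := Sylow.ofCard (T₂.subgroupOf C) k₂
  obtain ⟨c, hc⟩ := MulAction.exists_smul_eq C S₁ S₂
  refine ⟨c, ?_, ?_⟩
  · exact Subgroup.mem_centralizer_singleton_iff.1 c.2
  · have hc' : (c • S₁ : Sylow 2 C).toSubgroup = S₂.toSubgroup := by rw [hc]
    rw [Sylow.coe_subgroup_smul] at hc'
    have e₁ : S₁.toSubgroup = T₁.subgroupOf C := rfl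
    have e₂ : S₂.toSubgroup = T₂.subgroupOf C := rfl
    rw [e₁, e₂] at hc'
    ext x
    constructor
    · intro hx
      have hxC : x ∈ C := hT₂ hx
      have : (⟨x, hxC⟩ : C) ∈ T₂.subgroupOf C := by
        rw [Subgroup.mem_subgroupOf]; exact hx
      rw [← hc'] at this
      rw [Subgroup.mem_pointwise_smul_iff_inv_smul_mem] at this
      rw [Subgroup.mem_subgroupOf] at this
      rw [Subgroup.mem_map]
      refine ⟨_, this, ?_⟩
      simp [MulAut.smul_def, mul_assoc]
    · intro hx
      rw [Subgroup.mem_map] at hx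
      obtain ⟨y, hy, rfl⟩ := hx
      have hyC : y ∈ C := hT₁ hy
      have : MulAut.conj c • (⟨y, hyC⟩ : C) ∈ MulAut.conj c • T₁.subgroupOf C := by
        apply Subgroup.smul_mem_pointwise_smul
        rw [Subgroup.mem_subgroupOf]; exact hy
      rw [hc', Subgroup.mem_subgroupOf] at this
      simpa [MulAut.smul_def] using this

end Cfsg.Agent.Lib.Helper46.NilSym
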