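import Mathlib
import Cfsg.Agent.Lib.Helper46.NilSym.Defs
import Cfsg.Agent.Lib.Helper46.NilSym.GS1
import Cfsg.Agent.Lib.Helper46.NilSym.GS3

set_option autoImplicit false

namespace Cfsg.Agent.Lib.Helper46.NilSym
open Equiv

variable {α : Type}

theorem ext_conj [Fintype α] [DecidableEq α] (N₁ N₂ : Subgroup (Perm α))
    (h₁ : Group.IsNilpotent N₁) (h₂ : Group.IsNilpotent N₂) (hn : Nat.card α % 4 = 3)
    (c₁ : Nat.card N₁ = F (Nat.card α)) (c₂ : Nat.card N₂ = F (Nat.card α)) :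
    ∃ g : Perm α, N₂ = N₁.map (MulAut.conj g).toMonoidHom := by
  classical
  obtain ⟨z₁, T₁, hz₁, hT₁, k₁, e₁⟩ := ext_struct N₁ h₁ hn c₁
  obtain ⟨z₂, T₂, hz₂, hT₂, k₂, e₂⟩ := ext_struct N₂ h₂ hn c₂
  have hconj : IsConj z₁ z₂ := by
    rw [Perm.isConj_iff_cycleType_eq]
    exact hz₁.trans hz₂.symm
  obtain ⟨h, hh⟩ := isConj_iff.1 hconj
  set T₁' : Subgroup (Perm α) := T₁.map (MulAut.conj h).toMonoidHom with hT₁'
  have hcen : ∀ x ∈ T₁', x * z₂ = z₂ * x := by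
    intro x hx
    obtain ⟨y, hy, rfl⟩ := Subgroup.mem_map.1 hx
    have := hT₁ y hy
    simp only [MulEquiv.coe_toMonoidHom, MulAut.conj_apply]
    rw [← hh]
    calc h * y * h⁻¹ * (h * z₁ * h⁻¹) = h * (y * z₁) * h⁻¹ := by group
      _ = h * (z₁ * y) * h⁻¹ := by rw [this]
      _ = h * z₁ * h⁻¹ * (h * y * h⁻¹) := by group
  have hcard : Nat.card T₁' = W (Nat.card α - 3) := by
    rw [← k₁]
    exact Subgroup.card_map_of_injective (MulAut.conj h).injective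
  obtain ⟨c, hc, hcT⟩ := conj_in_centralizer z₂ hz₂ T₁' T₂ hcen hT₂ hcard k₂
  refine ⟨c * h, ?_⟩
  rw [e₂, e₁, Subgroup.map_sup, MonoidHom.map_zpowers, hcT, hT₁', Subgroup.map_map]
  have hA : (MulAut.conj c).toMonoidHom.comp (MulAut.conj h).toMonoidHom
      = (MulAut.conj (c * h)).toMonoidHom := by
    ext x : 1
    simp [mul_assoc]
  have hB : z₂ = (MulAut.conj (c * h)).toMonoidHom z₁ := by
    simp only [MulEquiv.coe_toMonoidHom, MulAut.conj_apply]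
    calc z₂ = c * z₂ * c⁻¹ := by rw [hc]; group
      _ = c * (h * z₁ * h⁻¹) * c⁻¹ := by rw [hh]
      _ = c * h * z₁ * (c * h)⁻¹ := by group
  rw [hA, ← hB]

end Cfsg.Agent.Lib.Helper46.NilSym
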