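import Mathlib
import Cfsg.Agent.Lib.Helper46.NilSym.Defs
import Cfsg.Agent.Lib.Helper46.NilSym.GB
import Cfsg.Agent.Lib.Helper46.NilSym.GA2
import Cfsg.Agent.Lib.Helper46.NilSym.GS4
import Cfsg.Agent.Lib.Helper46.NilSym.GA3
import Cfsg.Agent.Lib.Helper46.NilSym.GM

set_option autoImplicit false

namespace Cfsg.Agent.Lib.Helper46.NilSym
open Equiv

variable {α : Type}

theorem gs5_even (n c : ℕ) (hn : n % 4 = 3) (h7 : 7 ≤ n) (hc : 2 * c = F n) : 2 ∣ c := by
  unfold F at hc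
  rw [if_pos hn] at hc
  unfold W at hc
  have h3 : 3 ≤ padicValNat 2 (n - 3).factorial := by
    rw [← padicValNat_dvd_iff_le (Nat.factorial_ne_zero _)]
    have h24 : (4 : ℕ).factorial ∣ (n - 3).factorial := Nat.factorial_dvd_factorial (by omega)
    exact Dvd.dvd.trans (by decide) h24
  obtain ⟨v, hv⟩ : ∃ v, padicValNat 2 (n - 3).factorial = v + 2 := ⟨_, (Nat.sub_add_cancel (by omega)).symm⟩
  rw [hv, pow_add] at hc
  exact ⟨3 * 2 ^ v, by omega⟩

/-- one nilpotent subgroup of `A_n` of the extremal order is `M ⊓ A_n` with `M` extremal in `S_n` -/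
theorem gs5_ext [Fintype α] [DecidableEq α] (N : Subgroup (alternatingGroup α))
    (h : Group.IsNilpotent N) (hn : Nat.card α % 4 = 3) (h7 : 7 ≤ Nat.card α)
    (c : 2 * Nat.card N = F (Nat.card α)) :
    ∃ M : Subgroup (Perm α), Group.IsNilpotent M ∧ Nat.card M = F (Nat.card α) ∧
      ¬ M ≤ alternatingGroup α ∧ N.map (alternatingGroup α).subtype = M ⊓ alternatingGroup α := by
  obtain ⟨hnil, hcard, hle⟩ := alt_map_facts N h
  obtain ⟨M, hM, hNM, hMA⟩ := alt_even_extend _ hnil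
    (by rw [hcard]; exact gs5_even _ _ hn h7 c)
  have e1 := two_mul_card_inf_alt M hMA
  have e2 := sym_bound M hM
  have hle' : N.map (alternatingGroup α).subtype ≤ M ⊓ alternatingGroup α := le_inf hNM hle
  have e3 := Subgroup.card_le_of_le hle'
  rw [hcard] at e3
  refine ⟨M, hM, by omega, hMA, Subgroup.eq_of_le_of_card_ge hle' ?_⟩
  rw [hcard]
  omega

theorem alt_ext_conj [Fintype α] [DecidableEq α] (N₁ N₂ : Subgroup (alternatingGroup α))
    (h₁ : Group.IsNilpotent N₁) (h₂ : Group.IsNilpotent N₂) (hn : Nat.card α % 4 = 3)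
    (h7 : 7 ≤ Nat.card α)
    (c₁ : 2 * Nat.card N₁ = F (Nat.card α)) (c₂ : 2 * Nat.card N₂ = F (Nat.card α)) :
    ∃ g : alternatingGroup α, N₂ = N₁.map (MulAut.conj g).toMonoidHom := by
  obtain ⟨M₁, hM₁, cM₁, -, e₁⟩ := gs5_ext N₁ h₁ hn h7 c₁
  obtain ⟨M₂, hM₂, cM₂, hA₂, e₂⟩ := gs5_ext N₂ h₂ hn h7 c₂
  obtain ⟨g, hg⟩ := ext_conj M₁ M₂ hM₁ hM₂ hn cM₁ cM₂
  -- an even conjugating element
  obtain ⟨g', hg'A, hg'⟩ : ∃ g' : Perm α, g' ∈ alternatingGroup α ∧
      M₂ = M₁.map (MulAut.conj g').toMonoidHom := by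
    by_cases hgA : g ∈ alternatingGroup α
    · exact ⟨g, hgA, hg⟩
    · obtain ⟨s, hs, hsA⟩ := SetLike.not_le_iff_exists.mp hA₂
      refine ⟨s * g, ?_, ?_⟩
      · rw [Perm.mem_alternatingGroup] at hgA hsA ⊢
        rw [map_mul, (Int.units_eq_one_or _).resolve_left hgA,
          (Int.units_eq_one_or _).resolve_left hsA]
        rfl
      · ext x
        rw [Subgroup.mem_map_equiv]
        have h1 : x ∈ M₂ ↔ s⁻¹ * x * s ∈ M₂ :=
          ⟨fun hx => M₂.mul_mem (M₂.mul_mem (M₂.inv_mem hs) hx) hs, fun hx => by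
            have := M₂.mul_mem (M₂.mul_mem hs hx) (M₂.inv_mem hs)
            simpa [mul_assoc] using this⟩
        rw [h1, hg, Subgroup.mem_map_equiv, MulAut.conj_symm_apply, MulAut.conj_symm_apply]
        simp only [mul_inv_rev, mul_assoc]
  refine ⟨⟨g', hg'A⟩, alt_conj_of_map N₁ N₂ g' hg'A ?_⟩
  rw [e₁, e₂]
  ext x
  rw [Subgroup.mem_map_equiv, Subgroup.mem_inf, Subgroup.mem_inf, hg', Subgroup.mem_map_equiv]
  have hA : (MulAut.conj g').symm x ∈ alternatingGroup α ↔ x ∈ alternatingGroup α := by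
    rw [Perm.mem_alternatingGroup, Perm.mem_alternatingGroup, MulAut.conj_symm_apply, map_mul,
      map_mul, map_inv, mul_comm, mul_inv_cancel_left]
  rw [hA]

end Cfsg.Agent.Lib.Helper46.NilSym
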