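import Mathlib
import Cfsg.Agent.Lib.Helper46.NilSym.Defs

set_option autoImplicit false

namespace Cfsg.Agent.Lib.Helper46.NilSym
open Equiv

theorem gx_orderOf : orderOf (finRotate 3) = 3 :=
  orderOf_eq_prime (by decide) (by decide)

theorem exists_prod_three (n : ℕ) (hn : 3 ≤ n) (P : Subgroup (Perm (Fin (n - 3)))) :
    ∃ M : Subgroup (Perm (Fin n)), Nonempty (M ≃* (P × Multiplicative (ZMod 3))) ∧
      (P ≤ alternatingGroup (Fin (n - 3)) → M ≤ alternatingGroup (Fin n)) := by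
  have hn3 : n - 3 + 3 = n := by omega
  let e : Fin (n - 3) ⊕ Fin 3 ≃ Fin n := finSumFinEquiv.trans (finCongr hn3)
  let ι : Perm (Fin (n - 3)) × Perm (Fin 3) →* Perm (Fin n) :=
    e.permCongrHom.toMonoidHom.comp (Perm.sumCongrHom (Fin (n - 3)) (Fin 3))
  have hι : Function.Injective ι := e.permCongrHom.injective.comp Perm.sumCongrHom_injective
  have hsign : ∀ a b, Perm.sign (ι (a, b)) = Perm.sign a * Perm.sign b := by
    intro a b
    change Perm.sign (e.permCongr (Equiv.sumCongr a b)) = _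
    rw [Perm.sign_permCongr]
    exact Perm.sign_sumCongr a b
  have : Fact (Nat.Prime 3) := ⟨Nat.prime_three⟩
  have hZ : Nat.card (Subgroup.zpowers (finRotate 3)) = 3 := by
    rw [Nat.card_zpowers, gx_orderOf]
  have hZ' : Nat.card (Multiplicative (ZMod 3)) = 3 := by
    rw [Nat.card_eq_fintype_card]; rfl
  refine ⟨(P.prod (Subgroup.zpowers (finRotate 3))).map ι, ⟨?_⟩, ?_⟩
  · exact (((P.prod (Subgroup.zpowers (finRotate 3))).equivMapOfInjective ι hι).symm.trans
      (Subgroup.prodEquiv _ _)).trans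
      (MulEquiv.prodCongr (MulEquiv.refl _) (mulEquivOfPrimeCardEq hZ hZ'))
  · rintro hP _ ⟨⟨a, b⟩, ⟨ha, hb⟩, rfl⟩
    rw [Perm.mem_alternatingGroup, hsign]
    have h1 : Perm.sign a = 1 := Perm.mem_alternatingGroup.mp (hP ha)
    obtain ⟨k, rfl⟩ := Subgroup.mem_zpowers_iff.mp hb
    rw [h1, map_zpow, sign_finRotate]
    simp

end Cfsg.Agent.Lib.Helper46.NilSym
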