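import Cfsg.Agent.Lib.Helper46.NilSym.NT2

set_option autoImplicit false

/-! Ladder NILSYM, rung NT3 (helper41). -/

namespace Cfsg.Agent.Lib.Helper46.NilSym

theorem nt3_F2 : F 2 = 2 := by
  have := F_eq 0 2 (by norm_num)
  simp only [mul_zero, zero_add, pow_zero, one_mul, np1_W0] at this
  rw [this]
  simp [fr]

theorem nt3_aux (c : ℕ) : Odd c → c ≠ 1 → c ≠ 3 → c ≠ 5 → c ≠ 9 → 2 * tau c ≤ F c := by
  induction c using Nat.recOnPosPrimePosCoprime with
  | prime_pow p n hp hn =>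
    intro hc _ h3 h5 h9
    rw [tau_prime_pow p n hp]
    refine (two_tpp_le_W p n hp ?_ hn ?_ ?_ ?_).trans (W_le_F _)
    · rintro rfl
      have : Even (2 ^ n) := (Nat.even_pow.2 ⟨even_two, hn.ne'⟩)
      exact (Nat.not_even_iff_odd.2 hc) this
    · rintro ⟨rfl, rfl⟩; exact h3 (by norm_num)
    · rintro ⟨rfl, rfl⟩; exact h5 (by norm_num)
    · rintro ⟨rfl, rfl⟩; exact h9 (by norm_num)
  | zero =>
    intro hc
    exact absurd hc (by decide)
  | one =>
    intro _ h1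
    exact absurd rfl h1
  | coprime a b ha hb hab _ _ =>
    intro hc _ _ _ _
    obtain ⟨hoa, hob⟩ := Nat.odd_mul.1 hc
    have ha3 : 3 ≤ a := by
      obtain ⟨k, rfl⟩ := hoa
      omega
    have hb3 : 3 ≤ b := by
      obtain ⟨k, rfl⟩ := hob
      omega
    rw [tau_mul_of_coprime a b hab]
    calc 2 * (tau a * tau b) = 2 * tau a * tau b := by ring
      _ ≤ F 2 * F a * F b :=
        Nat.mul_le_mul (Nat.mul_le_mul (by rw [nt3_F2]) (tau_le_F a (by omega)))
          (tau_le_F b (by omega))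
      _ ≤ F (2 + a) * F b := Nat.mul_le_mul_right _ (F_mul_le _ _)
      _ ≤ F (2 + a + b) := F_mul_le _ _
      _ ≤ F (a * b) := F_mono (by nlinarith)

theorem two_tau_le_F (c : ℕ) (hc : Odd c) (h1 : c ≠ 1) (h3 : c ≠ 3) (h5 : c ≠ 5) (h9 : c ≠ 9) :
    2 * tau c ≤ F c := nt3_aux c hc h1 h3 h5 h9

end Cfsg.Agent.Lib.Helper46.NilSym
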